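import Cfsg.Agent.Lib.FGStruct.Camina

/-!
# An automorphism of prime power order acting on a `p`-group: a counting lemma
-/

set_option autoImplicit false
set_option linter.unusedSectionVars false

namespace Cfsg.Agent.Lib.NC.Aut

open Subgroup

/-- The acting cyclic group has order dividing the number of moved points. -/
lemma card_dvd_of_free {Ω : Type*} [Group Ω] [Finite Ω] (A : Subgroup (MulAut Ω)) (M : Set Ω)
    (hM : ∀ a ∈ A, ∀ z ∈ M, a z ∈ M) (hfree : ∀ a ∈ A, ∀ z ∈ M, a z = z → a = 1) :
    Nat.card A ∣ Nat.card M := by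
  classical
  letI : MulAction A M :=
    { smul := fun a z => ⟨(a : MulAut Ω) z, hM a a.2 z z.2⟩
      one_smul := by
        intro z
        apply Subtype.ext
        rfl
      mul_smul := by
        intro a b z
        apply Subtype.ext
        rfl }
  have hsmul : ∀ (a : A) (z : M), ((a • z : M) : Ω) = (a : MulAut Ω) z := fun _ _ => rfl
  have hst : ∀ b : M, MulAction.stabilizer A b = ⊥ := by
    intro b
    rw [eq_bot_iff]
    intro a ha
    have h1 : a • b = b := ha
    have h2 : (a : MulAut Ω) b = b := by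
      rw [← hsmul, h1]
    have := hfree a a.2 b b.2 h2
    exact (Subgroup.mem_bot).mpr (Subtype.ext this)
  have e := MulAction.selfEquivOrbitsQuotientProd (G := A) (X := M) hst
  rw [Nat.card_congr e, Nat.card_prod]
  exact dvd_mul_left _ _

/-- An automorphism of order dividing `r ^ s` of a `p`-group, when `r ^ s` does not divide
`p ^ e - 1`, has `α ^ r ^ (s - 1) = 1`. -/
theorem aut_trivial {Ω : Type*} [Group Ω] [Finite Ω] (α : MulAut Ω) {r s p d : ℕ} (hr : r.Prime)
    (hp : p.Prime) (hrp : r ≠ p) (hs : 0 < s) (hα : α ^ r ^ s = 1) (hΩ : Nat.card Ω = p ^ d)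
    (hcond : ∀ e, 0 < e → e ≤ d → ¬ r ^ s ∣ p ^ e - 1) : α ^ r ^ (s - 1) = 1 := by
  classical
  haveI : Fact r.Prime := ⟨hr⟩
  by_contra hne
  obtain ⟨s', rfl⟩ : ∃ s', s = s' + 1 := ⟨s - 1, by omega⟩
  simp only [Nat.add_sub_cancel] at hne
  have hord : orderOf α = r ^ (s' + 1) := orderOf_eq_prime_pow hne hα
  set γ := α ^ r ^ s' with hγ
  have hγr : γ ^ r = 1 := by
    rw [hγ, ← pow_mul, ← pow_succ]; exact hα
  -- the fixed points of γ
  let F : Subgroup Ω :=
    { carrier := {z | γ z = z}
      mul_mem' := by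
        intro a b ha hb
        show γ (a * b) = a * b
        rw [map_mul, show γ a = a from ha, show γ b = b from hb]
      one_mem' := map_one γ
      inv_mem' := by
        intro a ha
        show γ a⁻¹ = a⁻¹
        rw [map_inv, show γ a = a from ha] }
  have hF : ∀ z, z ∈ F ↔ γ z = z := fun _ => Iff.rfl
  let M : Set Ω := {z | γ z ≠ z}
  have hMdvd : Nat.card (zpowers α) ∣ Nat.card M := by
    apply card_dvd_of_free
    · rintro a ⟨n, rfl⟩ z hz
      show γ (α ^ n • z) ≠ _
      intro h
      apply hz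
      have hcomm : γ * α ^ n = α ^ n * γ := by
        rw [hγ]
        exact ((Commute.refl α).pow_left _).zpow_right n
      have h1 : (γ * α ^ n) z = (α ^ n * γ) z := by rw [hcomm]
      have h2 : (α ^ n) (γ z) = (α ^ n) z := by
        calc (α ^ n) (γ z) = (α ^ n * γ) z := rfl
          _ = (γ * α ^ n) z := h1.symm
          _ = γ ((α ^ n) z) := rfl
          _ = (α ^ n) z := h
      exact (α ^ n).injective h2
    · rintro a ha z hz haz
      by_contra ha1
      apply hz
      let S := MulAction.stabilizer (MulAut Ω) z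
      have haS : a ∈ S := haz
      obtain ⟨n, hn⟩ := (mem_powers_iff_mem_zpowers).2 ha
      have hn : α ^ n = a := hn
      have hn0 : n ≠ 0 := by
        rintro rfl
        exact ha1 (by rw [← hn, pow_zero])
      obtain ⟨j, m, hm, hnm⟩ := Nat.exists_eq_pow_mul_and_not_dvd hn0 r hr.ne_one
      have hjs : j ≤ s' := by
        by_contra hj
        push Not at hj
        apply ha1
        rw [← hn, hnm, pow_mul]
        have : α ^ r ^ j = 1 := by
          obtain ⟨t, rfl⟩ : ∃ t, j = (s' + 1) + t := ⟨j - (s' + 1), by omega⟩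
          rw [pow_add, pow_mul, hα, one_pow]
        rw [this, one_pow]
      have h1 : a ^ r ^ (s' - j) = γ ^ m := by
        rw [← hn, hnm, hγ, ← pow_mul, ← pow_mul]
        congr 1
        have : r ^ s' = r ^ j * r ^ (s' - j) := by
          rw [← pow_add]; congr 1; omega
        rw [this]; ring
      have h2 : γ ^ m ∈ S := by
        rw [← h1]
        exact S.pow_mem haS _
      have h3 : γ ^ r ∈ S := by
        rw [hγr]; exact S.one_mem
      have hcop : m.Coprime r := ((Nat.Prime.coprime_iff_not_dvd hr).2 hm).symm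
      have h4 : γ ∈ S := Cfsg.Agent.Lib.FGStruct.Camina.mem_of_pow_mem_of_coprime S hcop h2 h3
      exact h4
  rw [Nat.card_zpowers, hord] at hMdvd
  have hsplit : Nat.card Ω = Nat.card F + Nat.card M := by
    have h1 : Nat.card Ω = Nat.card {z : Ω // z ∈ F} + Nat.card {z : Ω // ¬ z ∈ F} := by
      rw [← Nat.card_sum]
      exact Nat.card_congr (Equiv.sumCompl (fun z : Ω => z ∈ F)).symm
    exact h1
  obtain ⟨e, -, he⟩ := (Nat.dvd_prime_pow hp).1 (hΩ ▸ Subgroup.card_subgroup_dvd_card F)
  have hed : e ≤ d := by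
    have h1 : Nat.card F ≤ Nat.card Ω := Subgroup.card_le_card_group F
    rw [he, hΩ] at h1
    exact (Nat.pow_le_pow_iff_right hp.one_lt).1 h1
  have hed' : e < d := by
    refine lt_of_le_of_ne hed ?_
    rintro rfl
    apply hne
    have h1 : F = ⊤ := by
      apply Subgroup.eq_top_of_card_eq
      rw [he, hΩ]
    ext z
    have : z ∈ F := by rw [h1]; trivial
    exact this
  have hM : Nat.card M = p ^ e * (p ^ (d - e) - 1) := by
    have h1 : p ^ d = p ^ e * p ^ (d - e) := by
      rw [← pow_add]; congr 1; omega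
    rw [hΩ, he, h1] at hsplit
    have h2 : 1 ≤ p ^ (d - e) := Nat.one_le_pow _ _ hp.pos
    rw [Nat.mul_sub, mul_one]
    omega
  rw [hM] at hMdvd
  have hcop : Nat.Coprime (r ^ (s' + 1)) (p ^ e) := by
    apply Nat.Coprime.pow
    exact (Nat.coprime_primes hr hp).2 hrp
  have h5 := hcop.dvd_of_dvd_mul_left hMdvd
  exact hcond (d - e) (by omega) (by omega) h5

end Cfsg.Agent.Lib.NC.Aut
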