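import Cfsg.Agent.Lib.NC.Seitz
import Cfsg.Agent.Lib.NC.Aut

/-!
# The core situation: a normal `p`-subgroup `P = Γ'` and a normal `T ≤ P` with `P ∖ T` one class
-/

set_option autoImplicit false
set_option linter.unusedSectionVars false

namespace Cfsg.Agent.Lib.NC.Core

open Subgroup Cfsg.Agent.Lib.NC.Seitz
open scoped commutatorElement

/-- The core hypotheses. -/
structure Core {Γ : Type*} [Group Γ] (p : ℕ) (P T : Subgroup Γ) (h : Γ) : Prop where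
  comm_eq : commutator Γ = P
  hTP : T ≤ P
  hPp : IsPGroup p P
  hh : h ∈ P
  hhT : h ∉ T
  ha : ∀ x ∈ P, x ∉ T → IsConj h x
  hb : ∀ x, x ∉ P → ∀ k ∈ P, ∃ y, (x * k)⁻¹ * (y * x * y⁻¹) ∈ T

variable {Γ : Type*} [Group Γ] [Finite Γ] {p : ℕ} [hp : Fact p.Prime] {P T : Subgroup Γ} {h : Γ}
  [hPn : P.Normal] [hTn : T.Normal]

/-- A central element of `P` modulo `T`. -/
theorem exists_central_mod (hPp : IsPGroup p P) (hPT : ¬ P ≤ T) :
    ∃ z ∈ P, z ∉ T ∧ z ^ p ∈ T ∧ ∀ y ∈ P, y * z * y⁻¹ * z⁻¹ ∈ T := by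
  classical
  let f : ↥P →* Γ ⧸ T := (QuotientGroup.mk' T).comp P.subtype
  have hf : ∀ x : Γ, (x : Γ ⧸ T) = 1 ↔ x ∈ T := fun x => QuotientGroup.eq_one_iff x
  have hQp : IsPGroup p f.range := IsPGroup.of_surjective hPp f.rangeRestrict f.rangeRestrict_surjective
  have hne : (⊤ : Subgroup f.range) ≠ ⊥ := by
    intro h0
    apply hPT
    intro x hx
    have h1 : (⟨f ⟨x, hx⟩, ⟨⟨x, hx⟩, rfl⟩⟩ : f.range) ∈ (⊤ : Subgroup f.range) := mem_top _
    rw [h0] at h1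
    have h2 : f ⟨x, hx⟩ = 1 := congrArg Subtype.val (mem_bot.1 h1)
    exact (hf x).1 h2
  obtain ⟨z, -, hzc, hzo⟩ := Cfsg.Agent.Lib.PGroups.Basic.exists_central_orderOf_eq hQp ⊤ hne
  obtain ⟨⟨g₀, hg₀⟩, hz⟩ := z.2
  refine ⟨g₀, hg₀, ?_, ?_, ?_⟩
  · intro hN
    have h1 : (z : Γ ⧸ T) = 1 := by
      rw [← hz]; exact (hf g₀).2 hN
    have h2 : z = 1 := Subtype.ext h1
    rw [h2, orderOf_one] at hzo
    exact hp.out.ne_one hzo.symm
  · have h1 : z ^ p = 1 := by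
      have := pow_orderOf_eq_one z
      rwa [hzo] at this
    have h2 : ((z ^ p : f.range) : Γ ⧸ T) = 1 := by rw [h1]; rfl
    rw [Subgroup.coe_pow, ← hz] at h2
    rw [← hf]
    exact h2
  · intro y hy
    have h1 := mem_center_iff.1 hzc ⟨f ⟨y, hy⟩, ⟨⟨y, hy⟩, rfl⟩⟩
    have h2 : f ⟨y, hy⟩ * (z : Γ ⧸ T) = (z : Γ ⧸ T) * f ⟨y, hy⟩ :=
      congrArg Subtype.val h1
    rw [← hz] at h2
    rw [← hf]
    change (y : Γ ⧸ T) * (g₀ : Γ ⧸ T) * (y : Γ ⧸ T)⁻¹ * (g₀ : Γ ⧸ T)⁻¹ = 1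
    have h3 : (y : Γ ⧸ T) * (g₀ : Γ ⧸ T) = (g₀ : Γ ⧸ T) * (y : Γ ⧸ T) := h2
    rw [h3]; group

/-- Two elements of `P ∖ T` are conjugate. -/
lemma Core.isConj (hc : Core p P T h) {x y : Γ} (hx : x ∈ P) (hxT : x ∉ T) (hy : y ∈ P) (hyT : y ∉ T) :
    IsConj x y := (hc.ha x hx hxT).symm.trans (hc.ha y hy hyT)

lemma conj_mem_notMem {N : Subgroup Γ} [hN : N.Normal] (y : Γ) {x : Γ} (hx : x ∉ N) : y * x * y⁻¹ ∉ N := by
  intro h
  apply hx
  have := hN.conj_mem _ h y⁻¹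
  simpa [mul_assoc] using this

/-- `P / T` is abelian. -/
lemma Core.comm_P (hc : Core p P T h) {x y : Γ} (hx : x ∈ P) (hy : y ∈ P) : y * x * y⁻¹ * x⁻¹ ∈ T := by
  have hPT : ¬ P ≤ T := fun hle => hc.hhT (hle hc.hh)
  obtain ⟨z, hzP, hzT, -, hz⟩ := exists_central_mod hc.hPp hPT
  by_cases hxT : x ∈ T
  · exact T.mul_mem (hTn.conj_mem x hxT y) (T.inv_mem hxT)
  · obtain ⟨a, rfl⟩ := isConj_iff.1 (hc.isConj hzP hzT hx hxT)
    have h1 := hz (a⁻¹ * y * a) (by simpa [mul_assoc] using hPn.conj_mem y hy a⁻¹)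
    have h2 := hTn.conj_mem _ h1 a
    have e : y * (a * z * a⁻¹) * y⁻¹ * (a * z * a⁻¹)⁻¹ =
        a * (a⁻¹ * y * a * z * (a⁻¹ * y * a)⁻¹ * z⁻¹) * a⁻¹ := by group
    rw [e]
    exact h2

/-- `P / T` has exponent `p`. -/
lemma Core.pow_P (hc : Core p P T h) {x : Γ} (hx : x ∈ P) : x ^ p ∈ T := by
  have hPT : ¬ P ≤ T := fun hle => hc.hhT (hle hc.hh)
  obtain ⟨z, hzP, hzT, hzp, -⟩ := exists_central_mod hc.hPp hPT
  by_cases hxT : x ∈ T
  · exact T.pow_mem hxT p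
  · obtain ⟨a, rfl⟩ := isConj_iff.1 (hc.isConj hzP hzT hx hxT)
    rw [conj_pow]
    exact hTn.conj_mem _ hzp a

/-- The Seitz data on the quotient. -/
theorem Core.seitz (hc : Core p P T h) : SeitzData (P.map (QuotientGroup.mk' T)) := by
  have hmk : ∀ x : Γ, (QuotientGroup.mk' T) x = (x : Γ ⧸ T) := fun _ => rfl
  have hmem : ∀ x : Γ, (x : Γ ⧸ T) ∈ P.map (QuotientGroup.mk' T) ↔ x ∈ P := by
    intro x
    constructor
    · rintro ⟨y, hy, hyx⟩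
      have h1 : (y : Γ ⧸ T) = x := hyx
      have h2 := QuotientGroup.eq.1 h1
      have h3 : x = y * (y⁻¹ * x) := by group
      rw [h3]
      exact P.mul_mem hy (hc.hTP h2)
    · intro hx
      exact ⟨x, hx, rfl⟩
  refine ⟨?_, ?_, ?_, ?_⟩
  · rintro _ ⟨x, hx, rfl⟩ _ ⟨y, hy, rfl⟩
    have h1 := hc.comm_P hy hx
    have h2 : ((x * y * x⁻¹ * y⁻¹ : Γ) : Γ ⧸ T) = 1 := (QuotientGroup.eq_one_iff _).2 h1
    have h3 : (QuotientGroup.mk' T) x * (QuotientGroup.mk' T) y *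
        ((QuotientGroup.mk' T) x)⁻¹ * ((QuotientGroup.mk' T) y)⁻¹ = 1 := h2
    have h4 := congrArg (fun z => z * ((QuotientGroup.mk' T) y * (QuotientGroup.mk' T) x)) h3
    simpa [mul_assoc] using h4
  · intro x y
    obtain ⟨x, rfl⟩ := QuotientGroup.mk_surjective x
    obtain ⟨y, rfl⟩ := QuotientGroup.mk_surjective y
    have h1 : x * y * x⁻¹ * y⁻¹ ∈ P := by
      rw [← hc.comm_eq]
      exact Subgroup.commutator_mem_commutator (mem_top x) (mem_top y)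
    exact ⟨_, h1, rfl⟩
  · rintro _ ⟨x, hx, rfl⟩ _ ⟨y, hy, rfl⟩ hx1 hy1
    have hxT : x ∉ T := fun h1 => hx1 ((QuotientGroup.eq_one_iff x).2 h1)
    have hyT : y ∉ T := fun h1 => hy1 ((QuotientGroup.eq_one_iff y).2 h1)
    obtain ⟨a, rfl⟩ := isConj_iff.1 (hc.isConj hx hxT hy hyT)
    refine isConj_iff.2 ⟨(a : Γ ⧸ T), ?_⟩
    rfl
  · intro a ha v hv
    obtain ⟨x, rfl⟩ := QuotientGroup.mk_surjective a
    obtain ⟨k, hk, rfl⟩ := hv
    have hxP : x ∉ P := fun h1 => ha ((hmem x).2 h1)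
    obtain ⟨y, hy⟩ := hc.hb x hxP k hk
    refine ⟨(y : Γ ⧸ T), ?_⟩
    have h1 := (QuotientGroup.eq).2 hy
    exact h1.symm

/-- Order of the preimage of a subgroup of the quotient. -/
theorem card_comap_mk (N : Subgroup Γ) [N.Normal] (S : Subgroup (Γ ⧸ N)) :
    Nat.card (S.comap (QuotientGroup.mk' N)) = Nat.card N * Nat.card S := by
  have h1 := Subgroup.card_mul_index (S.comap (QuotientGroup.mk' N))
  have h2 := Subgroup.card_mul_index S
  have h3 : (S.comap (QuotientGroup.mk' N)).index = S.index :=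
    Subgroup.index_comap_of_surjective S (QuotientGroup.mk'_surjective N)
  have h4 : Nat.card Γ = Nat.card (Γ ⧸ N) * Nat.card N :=
    Subgroup.card_eq_card_quotient_mul_card_subgroup N
  rw [h3] at h1
  have h5 : 0 < S.index := Nat.pos_of_ne_zero (fun h => by
    rw [h, mul_zero] at h2
    exact Nat.card_pos.ne' h2.symm)
  apply Nat.eq_of_mul_eq_mul_right h5
  rw [h1, mul_assoc, h2, h4, mul_comm]

/-- Order of the image in a quotient. -/
theorem card_map_mk (N M : Subgroup Γ) [N.Normal] (hNM : N ≤ M) :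
    Nat.card N * Nat.card (M.map (QuotientGroup.mk' N)) = Nat.card M := by
  rw [← card_comap_mk, Subgroup.comap_map_eq_self]
  rwa [QuotientGroup.ker_mk']

/-- Counting a subgroup through a conjugation map whose values form a set `S`. -/
theorem card_stab (x : Γ) (D : Subgroup Γ) (hC : centralizer ({x} : Set Γ) ≤ D) (S : Set Γ)
    (hf : ∀ y ∈ D, x⁻¹ * y * x * y⁻¹ ∈ S) (hs : ∀ s ∈ S, ∃ y ∈ D, x⁻¹ * y * x * y⁻¹ = s) :
    Nat.card D = Nat.card S * Nat.card (centralizer ({x} : Set Γ)) := by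
  have hmemC : ∀ a : Γ, a ∈ centralizer ({x} : Set Γ) ↔ a * x = x * a := fun _ =>
    mem_centralizer_singleton_iff
  let ψ : D → Γ := fun y => x⁻¹ * y * x * (y : Γ)⁻¹
  have h1 := Cfsg.Agent.Lib.FGStruct.Camina.card_eq_range_mul ψ ((centralizer ({x} : Set Γ)).subgroupOf D) (by
    intro a b
    rw [mem_subgroupOf, hmemC]
    have e1 : ψ a = ψ b ↔ x⁻¹ * (a : Γ) * x * (a : Γ)⁻¹ = x⁻¹ * (b : Γ) * x * (b : Γ)⁻¹ := Iff.rfl
    rw [e1]
    simp only [Subgroup.coe_mul, Subgroup.coe_inv]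
    constructor
    · intro e
      have e2 : (a : Γ) * x * (a : Γ)⁻¹ = (b : Γ) * x * (b : Γ)⁻¹ := by
        have := congrArg (fun z => x * z) e
        simpa [mul_assoc] using this
      have e3 : x = (a : Γ)⁻¹ * ((b : Γ) * x * (b : Γ)⁻¹) * a := by
        rw [← e2]; group
      calc (a : Γ)⁻¹ * b * x = ((a : Γ)⁻¹ * b) * x * ((a : Γ)⁻¹ * b)⁻¹ * ((a : Γ)⁻¹ * b) := by
            group
        _ = ((a : Γ)⁻¹ * ((b : Γ) * x * (b : Γ)⁻¹) * a) * ((a : Γ)⁻¹ * b) := by group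
        _ = x * ((a : Γ)⁻¹ * b) := by rw [← e3]
    · intro e
      have e2 : (b : Γ) * x = (a : Γ) * (x * ((a : Γ)⁻¹ * b)) := by
        rw [← e]; group
      have e3 : (b : Γ) * x * (b : Γ)⁻¹ = (a : Γ) * x * (a : Γ)⁻¹ := by
        rw [e2]; group
      have : x⁻¹ * (b : Γ) * x * (b : Γ)⁻¹ = x⁻¹ * ((b : Γ) * x * (b : Γ)⁻¹) := by group
      rw [this, e3]; group)
  have h2 : Nat.card ((centralizer ({x} : Set Γ)).subgroupOf D) = Nat.card (centralizer ({x} : Set Γ)) :=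
    Nat.card_congr (subgroupOfEquivOfLe hC).toEquiv
  have h3 : Set.range ψ = S := by
    ext s
    constructor
    · rintro ⟨y, rfl⟩
      exact hf y y.2
    · intro hs'
      obtain ⟨y, hy, hys⟩ := hs s hs'
      exact ⟨⟨y, hy⟩, hys⟩
  rw [h1, h2, h3]

/-- In a `p`-group a proper subgroup has index at least `p`. -/
lemma mul_card_le_of_lt {D N : Subgroup Γ} (hD : IsPGroup p D) (hND : N ≤ D) (hne : N ≠ D) :
    p * Nat.card N ≤ Nat.card D := by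
  obtain ⟨c, hc⟩ := Subgroup.card_dvd_of_le hND
  obtain ⟨a, ha⟩ := IsPGroup.iff_card.1 hD
  have hc1 : c ≠ 1 := by
    rintro rfl
    apply hne
    apply Subgroup.eq_of_le_of_card_ge hND
    rw [hc, mul_one]
  have hcd : c ∣ p ^ a := by
    rw [← ha, hc]
    exact dvd_mul_left _ _
  obtain ⟨b, -, rfl⟩ := (Nat.dvd_prime_pow hp.out).1 hcd
  have hb : b ≠ 0 := by
    rintro rfl
    exact hc1 (pow_zero p)
  have h1 : p ≤ p ^ b := Nat.le_self_pow hb p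
  rw [hc, mul_comm]
  exact Nat.mul_le_mul_left _ h1

end Cfsg.Agent.Lib.NC.Core
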