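import Cfsg.Agent.Lib.NC.Core

/-!
# The core situation when `|P : T| > 2`: sections of the lower central series
-/

set_option autoImplicit false
set_option linter.unusedSectionVars false

namespace Cfsg.Agent.Lib.NC.Core

open Subgroup Cfsg.Agent.Lib.NC.Seitz
open scoped commutatorElement

variable {Γ : Type*} [Group Γ] [Finite Γ] {p : ℕ} [hp : Fact p.Prime] {P T : Subgroup Γ} {h : Γ}
  [hPn : P.Normal] [hTn : T.Normal]

lemma Core.mem_map_mk (hc : Core p P T h) (x : Γ) :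
    (x : Γ ⧸ T) ∈ P.map (QuotientGroup.mk' T) ↔ x ∈ P := by
  constructor
  · rintro ⟨y, hy, hyx⟩
    have h1 : (y : Γ ⧸ T) = x := hyx
    have h2 := QuotientGroup.eq.1 h1
    have h3 : x = y * (y⁻¹ * x) := by group
    rw [h3]
    exact P.mul_mem hy (hc.hTP h2)
  · intro hx
    exact ⟨x, hx, rfl⟩

lemma Core.card_P (hc : Core p P T h) :
    Nat.card T * Nat.card (P.map (QuotientGroup.mk' T)) = Nat.card P := card_map_mk T P hc.hTP

section Large

variable (hc : Core p P T h) (h2 : 2 < Nat.card (P.map (QuotientGroup.mk' T)))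
include hc h2

lemma Core.centralizer_le {x y : Γ} (hx : x ∈ P) (hxT : x ∉ T) (hyx : y * x = x * y) : y ∈ P := by
  have h3 := (hc.seitz.exists_compl h2).1 (y : Γ ⧸ T) (x : Γ ⧸ T) ⟨x, hx, rfl⟩
    (fun h1 => hxT ((QuotientGroup.eq_one_iff x).1 h1)) (by
      show ((y * x : Γ) : Γ ⧸ T) = ((x * y : Γ) : Γ ⧸ T)
      rw [hyx])
  exact (hc.mem_map_mk y).1 h3

lemma Core.card_centralizer {x : Γ} (hx : x ∈ P) (hxT : x ∉ T) :
    Nat.card (centralizer ({x} : Set Γ)) = Nat.card (P.map (QuotientGroup.mk' T)) := by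
  classical
  obtain ⟨-, A, -, -, hA1, hA2⟩ := hc.seitz.exists_compl h2
  set q := Nat.card (P.map (QuotientGroup.mk' T)) with hq
  have h3 := Cfsg.Agent.Lib.Char.Complete.card_isConj_mul_card_centralizer x
  have h4 : Nat.card Γ = Nat.card (Γ ⧸ T) * Nat.card T :=
    Subgroup.card_eq_card_quotient_mul_card_subgroup T
  have h5 := hc.card_P
  have h6 : Nat.card {z : Γ // IsConj z x} = Nat.card {z : P // (z : Γ) ∉ T} := by
    refine Nat.card_congr ⟨fun z => ⟨⟨z.1, ?_⟩, ?_⟩, fun z => ⟨z.1.1, ?_⟩, fun _ => rfl, fun _ => rfl⟩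
    · obtain ⟨a, ha⟩ := isConj_iff.1 z.2.symm
      rw [← ha]
      exact hPn.conj_mem _ hx a
    · obtain ⟨a, ha⟩ := isConj_iff.1 z.2.symm
      rw [← ha]
      exact conj_mem_notMem a hxT
    · exact hc.isConj z.1.2 z.2 hx hxT
  have h7 : Nat.card P = Nat.card {z : P // (z : Γ) ∈ T} + Nat.card {z : P // (z : Γ) ∉ T} := by
    rw [← Nat.card_sum]
    exact Nat.card_congr (Equiv.sumCompl (fun z : P => (z : Γ) ∈ T)).symm
  have h8 : Nat.card {z : P // (z : Γ) ∈ T} = Nat.card T := by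
    refine Nat.card_congr ⟨fun z => ⟨z.1.1, z.2⟩, fun z => ⟨⟨z.1, hc.hTP z.2⟩, z.2⟩, fun _ => rfl, fun _ => rfl⟩
  rw [h6] at h3
  set e := Nat.card {z : P // (z : Γ) ∉ T}
  set t := Nat.card T
  set a := Nat.card A
  set c := Nat.card (centralizer ({x} : Set Γ))
  have hq' : q = a + 1 := hA2.symm
  have ht : 0 < t := Nat.card_pos
  have ha : 0 < a := by omega
  have he : e = a * t := by
    have : t * (a + 1) = t + e := by
      rw [← hq', h5, h7, h8]
    nlinarith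
  have h9 : (a * t) * c = (a * t) * q := by
    calc (a * t) * c = e * c := by rw [he]
      _ = Nat.card Γ := h3
      _ = (a * q) * t := by rw [h4, hA1]
      _ = _ := by ring
  exact Nat.eq_of_mul_eq_mul_left (Nat.mul_pos ha ht) h9

lemma Core.surj {x t : Γ} (hx : x ∈ P) (hxT : x ∉ T) (ht : t ∈ T) : ∃ y ∈ P, y * x * y⁻¹ = x * t := by
  classical
  let S : Set Γ := Set.range (fun y : P => x⁻¹ * (y : Γ) * x * (y : Γ)⁻¹)
  have hS : ∀ s ∈ S, s ∈ T := by
    rintro _ ⟨y, rfl⟩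
    have h1 := hc.comm_P hx y.2
    have h3 := hTn.conj_mem _ h1 x⁻¹
    have e : x⁻¹ * (y : Γ) * x * (y : Γ)⁻¹ = x⁻¹ * ((y : Γ) * x * (y : Γ)⁻¹ * x⁻¹) * x⁻¹⁻¹ := by group
    simp only
    rw [e]
    exact h3
  have h3 := card_stab x P (fun c hc' => hc.centralizer_le h2 hx hxT (mem_centralizer_singleton_iff.1 hc'))
    S (fun y hy => ⟨⟨y, hy⟩, rfl⟩) (by
      rintro _ ⟨y, rfl⟩
      exact ⟨y, y.2, rfl⟩)
  rw [hc.card_centralizer h2 hx hxT, ← hc.card_P] at h3
  have hq : 0 < Nat.card (P.map (QuotientGroup.mk' T)) := Nat.card_pos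
  have h4 : Nat.card T = Nat.card S := Nat.eq_of_mul_eq_mul_right hq h3
  have h5 : S = (T : Set Γ) := by
    apply Set.eq_of_subset_of_ncard_le hS
    · rw [← Nat.card_coe_set_eq, ← Nat.card_coe_set_eq]
      exact h4.le
  have h6 : t ∈ S := by
    rw [h5]; exact ht
  obtain ⟨y, hy⟩ := h6
  refine ⟨y, y.2, ?_⟩
  have h7 : x⁻¹ * (y : Γ) * x * (y : Γ)⁻¹ = t := hy
  rw [← h7]; group

/-- The section bound. -/
lemma Core.section_bound {N₁ N₂ : Subgroup Γ} [hN₁ : N₁.Normal] (hN₂T : N₂ ≤ T)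
    (hcomm : ⁅N₂, P⁆ ≤ N₁) (hN₁T : N₁ ≤ T) :
    p * Nat.card N₂ ≤ Nat.card (P.map (QuotientGroup.mk' T)) * Nat.card N₁ := by
  classical
  let D : Subgroup Γ := Cfsg.Agent.Lib.FGStruct.Camina.stabCoset N₁ h ⊓ P
  have hmemD : ∀ y, y ∈ D ↔ y * h * y⁻¹ * h⁻¹ ∈ N₁ ∧ y ∈ P := fun y => Iff.rfl
  have hC : centralizer ({h} : Set Γ) ≤ D := by
    intro c hc'
    have h1 : c * h = h * c := mem_centralizer_singleton_iff.1 hc'
    refine (hmemD c).2 ⟨?_, hc.centralizer_le h2 hc.hh hc.hhT h1⟩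
    rw [h1]
    simp [N₁.one_mem]
  have h3 := card_stab h D hC (N₁ : Set Γ) (by
    intro y hy
    have h1 := ((hmemD y).1 hy).1
    have h3 := hN₁.conj_mem _ h1 h⁻¹
    have e : h⁻¹ * y * h * y⁻¹ = h⁻¹ * (y * h * y⁻¹ * h⁻¹) * h⁻¹⁻¹ := by group
    show h⁻¹ * y * h * y⁻¹ ∈ N₁
    rw [e]
    exact h3) (by
    intro s hs
    obtain ⟨y, hy, hys⟩ := hc.surj h2 hc.hh hc.hhT (hN₁T hs)
    refine ⟨y, (hmemD y).2 ⟨?_, hy⟩, ?_⟩
    · rw [hys]
      have e : h * s * h⁻¹ = h * s * h⁻¹ := rfl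
      exact hN₁.conj_mem _ hs h
    · have e : h⁻¹ * y * h * y⁻¹ = h⁻¹ * (y * h * y⁻¹) := by group
      rw [e, hys]
      group)
  rw [hc.card_centralizer h2 hc.hh hc.hhT] at h3
  have hN₂D : N₂ ≤ D := by
    intro y hy
    refine (hmemD y).2 ⟨?_, hc.hTP (hN₂T hy)⟩
    exact hcomm (Subgroup.commutator_mem_commutator hy hc.hh)
  have hne : N₂ ≠ D := by
    intro he
    have h4 : h ∈ D := by
      refine (hmemD h).2 ⟨?_, hc.hh⟩
      simp [N₁.one_mem]
    rw [← he] at h4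
    exact hc.hhT (hN₂T h4)
  have hDp : IsPGroup p D := hc.hPp.to_le inf_le_right
  have h5 := mul_card_le_of_lt hDp hN₂D hne
  rw [h3] at h5
  have e : Nat.card (N₁ : Set Γ) = Nat.card N₁ := rfl
  rw [e] at h5
  rw [mul_comm (Nat.card (P.map _))]
  exact h5

end Large

/-- `P.lowerCentralSeries k` is normal. -/
instance lcs_normal (k : ℕ) : (P.lowerCentralSeries k).Normal := by
  induction k with
  | zero => simpa using hPn
  | succ k ih =>
    rw [Subgroup.lowerCentralSeries_succ]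
    exact Subgroup.commutator_normal _ _

lemma lcs_le (k : ℕ) : P.lowerCentralSeries k ≤ P :=
  Subgroup.lowerCentralSeries_antitone P (Nat.zero_le k)

/-- Nilpotency: a subgroup inside `⁅N, P⁆` vanishes. -/
lemma eq_bot_of_le_comm (hPp : IsPGroup p P) {N : Subgroup Γ} (hNP : N ≤ P) (hN : N ≤ ⁅N, P⁆) : N = ⊥ := by
  haveI : Group.IsNilpotent P := hPp.isNilpotent
  obtain ⟨m, hm⟩ := (isNilpotent_iff_lowerCentralSeries P).1 inferInstance
  have key : ∀ k, N ≤ P.lowerCentralSeries k := by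
    intro k
    induction k with
    | zero => simpa using hNP
    | succ k ih =>
      rw [Subgroup.lowerCentralSeries_succ]
      exact hN.trans (Subgroup.commutator_mono ih le_rfl)
  rw [eq_bot_iff, ← hm]
  exact key m

lemma exists_lcs_bot (hPp : IsPGroup p P) : ∃ m, P.lowerCentralSeries m = ⊥ := by
  haveI : Group.IsNilpotent P := hPp.isNilpotent
  exact (isNilpotent_iff_lowerCentralSeries P).1 inferInstance

section Large2

variable (hc : Core p P T h) (h2 : 2 < Nat.card (P.map (QuotientGroup.mk' T)))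
include hc h2

/-- `T = P'`. -/
lemma Core.lcs_one : P.lowerCentralSeries 1 = T := by
  apply le_antisymm
  · show ⁅P.lowerCentralSeries 0, P⁆ ≤ T
    rw [commutator_le]
    intro x hx y hy
    exact hc.comm_P hy hx
  · intro t ht
    obtain ⟨y, hy, hyt⟩ := hc.surj h2 hc.hh hc.hhT ht
    have e : t = ⁅h⁻¹, y⁆ := by
      have h1 : t = h⁻¹ * (y * h * y⁻¹) := by rw [hyt]; group
      rw [h1, commutatorElement_def]; group
    rw [e]
    exact Subgroup.commutator_mem_commutator (P.inv_mem hc.hh) hy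

/-- The action of a `p'`-element `β` on a section of order `< q`. -/
lemma Core.sec_central (β : Γ) {r s n : ℕ} (hr : r.Prime) (hrp : r ≠ p) (hs : 0 < s) (hβ : β ^ r ^ s = 1)
    (hq : Nat.card (P.map (QuotientGroup.mk' T)) = p ^ n)
    (hρ : ∀ e, 0 < e → e < n → ¬ r ^ s ∣ p ^ e - 1)
    {N₁ N₂ : Subgroup Γ} [hN₁ : N₁.Normal] [hN₂ : N₂.Normal] (hN₁₂ : N₁ ≤ N₂) (hN₂T : N₂ ≤ T)
    (hcomm : ⁅N₂, P⁆ ≤ N₁) {t : Γ} (ht : t ∈ N₂) :
    β ^ r ^ (s - 1) * t * (β ^ r ^ (s - 1))⁻¹ * t⁻¹ ∈ N₁ := by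
  classical
  let Y := Γ ⧸ N₁
  let Ω : Subgroup Y := N₂.map (QuotientGroup.mk' N₁)
  haveI hΩn : Ω.Normal := Subgroup.Normal.map hN₂ _ (QuotientGroup.mk'_surjective N₁)
  let α : MulAut Ω := MulAut.conjNormal ((β : Y))
  have hα : α ^ r ^ s = 1 := by
    show (MulAut.conjNormal ((β : Y))) ^ r ^ s = 1
    rw [← map_pow]
    have : ((β : Y)) ^ r ^ s = 1 := by
      rw [← QuotientGroup.mk_pow, hβ]; rfl
    rw [this, map_one]
  have hcard := card_map_mk N₁ N₂ hN₁₂
  have hN₂p : IsPGroup p N₂ := hc.hPp.to_le (hN₂T.trans hc.hTP)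
  obtain ⟨a, ha⟩ := IsPGroup.iff_card.1 hN₂p
  have hdvd : Nat.card Ω ∣ p ^ a := by
    rw [← ha, ← hcard]
    exact dvd_mul_left _ _
  obtain ⟨d, -, hd⟩ := (Nat.dvd_prime_pow hp.out).1 hdvd
  have hbound := hc.section_bound h2 hN₂T hcomm (hN₁₂.trans hN₂T)
  have hdn : d < n := by
    rw [hq, ← hcard, hd] at hbound
    have hpos : 0 < Nat.card N₁ := Nat.card_pos
    have h3 : p * p ^ d ≤ p ^ n := by
      have : (p * p ^ d) * Nat.card N₁ ≤ p ^ n * Nat.card N₁ := by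
        calc (p * p ^ d) * Nat.card N₁ = p * (Nat.card N₁ * p ^ d) := by ring
          _ ≤ _ := hbound
      exact Nat.le_of_mul_le_mul_right this hpos
    rw [← pow_succ'] at h3
    have := (Nat.pow_le_pow_iff_right hp.out.one_lt).1 h3
    omega
  have h3 := Cfsg.Agent.Lib.NC.Aut.aut_trivial α hr hp.out hrp hs hα hd (by
    intro e he hed
    exact hρ e he (by omega))
  have h4 : (α ^ r ^ (s - 1)) ⟨(t : Y), ⟨t, ht, rfl⟩⟩ = ⟨(t : Y), ⟨t, ht, rfl⟩⟩ := by
    rw [h3]; rfl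
  have h5 : α ^ r ^ (s - 1) = MulAut.conjNormal ((β ^ r ^ (s - 1) : Γ) : Y) := by
    show (MulAut.conjNormal ((β : Y))) ^ r ^ (s - 1) = _
    rw [← map_pow, QuotientGroup.mk_pow]
  rw [h5] at h4
  have h6 : (((β ^ r ^ (s - 1) * t * (β ^ r ^ (s - 1))⁻¹ : Γ)) : Y) = (t : Y) := congrArg Subtype.val h4
  have h7 := QuotientGroup.eq.1 h6
  have h8 := hN₁.conj_mem _ (N₁.inv_mem h7) (β ^ r ^ (s - 1) * t * (β ^ r ^ (s - 1))⁻¹)
  have e : β ^ r ^ (s - 1) * t * (β ^ r ^ (s - 1))⁻¹ * t⁻¹ =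
      (β ^ r ^ (s - 1) * t * (β ^ r ^ (s - 1))⁻¹) * ((β ^ r ^ (s - 1) * t * (β ^ r ^ (s - 1))⁻¹)⁻¹ * t)⁻¹ *
        (β ^ r ^ (s - 1) * t * (β ^ r ^ (s - 1))⁻¹)⁻¹ := by group
  rw [e]
  exact h8

/-- `c` centralizes `T`. -/
lemma Core.c_central (β : Γ) {r s n : ℕ} (hr : r.Prime) (hrp : r ≠ p) (hs : 0 < s) (hβ : β ^ r ^ s = 1)
    (hq : Nat.card (P.map (QuotientGroup.mk' T)) = p ^ n)
    (hρ : ∀ e, 0 < e → e < n → ¬ r ^ s ∣ p ^ e - 1) {t : Γ} (ht : t ∈ T) :
    β ^ r ^ (s - 1) * t = t * β ^ r ^ (s - 1) := by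
  obtain ⟨m, hm⟩ := exists_lcs_bot hc.hPp
  set c := β ^ r ^ (s - 1) with hcdef
  have hcr : c ^ r = 1 := by
    rw [hcdef, ← pow_mul, ← pow_succ]
    have : s - 1 + 1 = s := by omega
    rw [this]; exact hβ
  have key : ∀ i k, k + i = m → 1 ≤ k → ∀ t ∈ P.lowerCentralSeries k, c * t = t * c := by
    intro i
    induction i with
    | zero =>
      intro k hk _ t ht
      have : k = m := by omega
      rw [this, hm, mem_bot] at ht
      rw [ht]; simp
    | succ i ih =>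
      intro k hk hk1 t ht
      have hih := ih (k + 1) (by omega) (by omega)
      have hle : P.lowerCentralSeries k ≤ T := by
        rw [← hc.lcs_one h2]
        exact Subgroup.lowerCentralSeries_antitone P hk1
      have h3 := hc.sec_central h2 β hr hrp hs hβ hq hρ
        (N₁ := P.lowerCentralSeries (k + 1)) (N₂ := P.lowerCentralSeries k)
        (Subgroup.lowerCentralSeries_antitone P (Nat.le_succ k)) hle le_rfl ht
      rw [← hcdef] at h3
      set u := c * t * c⁻¹ * t⁻¹ with hu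
      have hcu : c * u = u * c := hih u h3
      have e1 : c * t * c⁻¹ = u * t := by rw [hu]; group
      have hpow : ∀ j : ℕ, c ^ j * t * (c ^ j)⁻¹ = u ^ j * t := by
        intro j
        induction j with
        | zero => simp
        | succ j ihj =>
          have hcuj : c * u ^ j = u ^ j * c := (Commute.pow_right (show Commute c u from hcu) j).eq
          calc c ^ (j + 1) * t * (c ^ (j + 1))⁻¹ = c * (c ^ j * t * (c ^ j)⁻¹) * c⁻¹ := by
                rw [pow_succ']; group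
            _ = c * (u ^ j * t) * c⁻¹ := by rw [ihj]
            _ = (c * u ^ j) * t * c⁻¹ := by group
            _ = (u ^ j * c) * t * c⁻¹ := by rw [hcuj]
            _ = u ^ j * (c * t * c⁻¹) := by group
            _ = u ^ j * (u * t) := by rw [e1]
            _ = u ^ (j + 1) * t := by rw [pow_succ]; group
      have h4 : u ^ r = 1 := by
        have := hpow r
        rw [hcr] at this
        have h5 : t = u ^ r * t := by simpa using this
        exact mul_eq_right.1 h5.symm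
      have huP : u ∈ P := lcs_le _ h3
      obtain ⟨b, hb⟩ := hc.hPp ⟨u, huP⟩
      have hb' : u ^ p ^ b = 1 := congrArg Subtype.val hb
      have h5 : orderOf u ∣ r := orderOf_dvd_of_pow_eq_one h4
      have h6 : orderOf u ∣ p ^ b := orderOf_dvd_of_pow_eq_one hb'
      have hcop : Nat.Coprime r (p ^ b) := Nat.Coprime.pow_right _ ((Nat.coprime_primes hr hp.out).2 hrp)
      have h7 := Nat.eq_one_of_dvd_coprimes hcop h5 h6
      have hu1 : u = 1 := orderOf_eq_one_iff.1 h7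
      rw [hu] at hu1
      have h8 : c * t * c⁻¹ = t := by
        have := congrArg (fun z => z * t) hu1
        simpa using this
      calc c * t = c * t * c⁻¹ * c := by group
        _ = t * c := by rw [h8]
  by_cases hm1 : 1 ≤ m
  · apply key (m - 1) 1 (by omega) le_rfl
    rw [hc.lcs_one h2]
    exact ht
  · have hm0 : m = 0 := by omega
    rw [hm0] at hm
    have h3 : h = 1 := by
      have : h ∈ P.lowerCentralSeries 0 := hc.hh
      rw [hm, mem_bot] at this
      exact this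
    exact absurd (h3 ▸ T.one_mem) hc.hhT

end Large2

end Cfsg.Agent.Lib.NC.Core
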