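import Cfsg.Agent.Lib.NC.Large
import Cfsg.Agent.Lib.Zsig.Basic

/-!
# The core situation when `|P : T| > 2`: end of the proof
-/

set_option autoImplicit false
set_option linter.unusedSectionVars false

namespace Cfsg.Agent.Lib.NC.Core

open Subgroup Cfsg.Agent.Lib.NC.Seitz
open scoped commutatorElement

/-- A prime power dividing `p ^ n - 1` but no smaller `p ^ e - 1`. -/
lemma exists_rho {p n : ℕ} (hp : p.Prime) (hn : 2 ≤ n) :
    ∃ r s : ℕ, r.Prime ∧ 0 < s ∧ r ≠ p ∧ r ^ s ∣ p ^ n - 1 ∧ ∀ e, 0 < e → e < n → ¬ r ^ s ∣ p ^ e - 1 := by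
  by_cases h6 : p = 2 ∧ n = 6
  · obtain ⟨rfl, rfl⟩ := h6
    refine ⟨3, 2, by norm_num, by norm_num, by norm_num, by norm_num, ?_⟩
    intro e he1 he2
    interval_cases e <;> norm_num
  by_cases h2 : n = 2 ∧ ∃ m : ℕ, p + 1 = 2 ^ m
  · obtain ⟨rfl, m, hm⟩ := h2
    have hp2 : p ≠ 2 := by
      rintro rfl
      have hm1 : 2 ^ m = 3 := hm.symm
      have : m < 2 := by
        by_contra hh
        push Not at hh
        have : 2 ^ 2 ≤ 2 ^ m := Nat.pow_le_pow_right (by norm_num) hh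
        omega
      interval_cases m <;> omega
    have hp3 : 3 ≤ p := by
      have := hp.two_le
      omega
    have hm2 : 2 ≤ m := by
      by_contra hh
      push Not at hh
      interval_cases m <;> omega
    obtain ⟨m', rfl⟩ : ∃ m', m = m' + 2 := ⟨m - 2, by omega⟩
    have h4 : 4 ∣ p + 1 := by
      rw [hm, pow_add]
      exact dvd_mul_left _ _
    refine ⟨2, 2, Nat.prime_two, by norm_num, hp2.symm, ?_, ?_⟩
    · obtain ⟨c, hc⟩ := h4
      have e : p ^ 2 - 1 = (p + 1) * (p - 1) := by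
        obtain ⟨p', rfl⟩ : ∃ p', p = p' + 1 := ⟨p - 1, by omega⟩
        simp only [Nat.add_sub_cancel]
        have : (p' + 1) ^ 2 = (p' + 1 + 1) * p' + 1 := by ring
        rw [this]; simp
      rw [e, hc]
      norm_num
      exact Dvd.dvd.mul_right (dvd_mul_right 4 c) _
    · intro e he1 he2
      have : e = 1 := by omega
      subst this
      rw [pow_one]
      intro h5
      norm_num at h5
      omega
  obtain ⟨r, hr, hrd, hrk⟩ := Cfsg.Agent.Lib.Zsig.Basic.zsigmondy p n hp.one_lt (by omega) h6 h2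
  refine ⟨r, 1, hr, Nat.one_pos, ?_, by simpa using hrd, ?_⟩
  · rintro rfl
    have h1 : r ∣ r ^ n := dvd_pow_self r (by omega)
    have h3 : r ^ n - 1 + 1 = r ^ n := Nat.sub_add_cancel (Nat.one_le_pow _ _ hr.pos)
    have h4 : r ∣ 1 := by
      have := (Nat.dvd_add_right hrd).1 (h3 ▸ h1)
      exact this
    exact hr.one_lt.ne' (Nat.dvd_one.1 h4)
  · intro e he1 he2
    simpa using hrk e he1 he2

theorem pow_mul_eq_aux {D : Type*} [Group D] {a b c : D} (hac : Commute a c) (h : a * b = c * b * a)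
    (k : ℕ) : a ^ k * b = c ^ k * b * a ^ k := by
  induction k with
  | zero => simp
  | succ k ih =>
    calc a ^ (k + 1) * b = a * (a ^ k * b) := by rw [pow_succ']; group
      _ = a * (c ^ k * b * a ^ k) := by rw [ih]
      _ = (a * c ^ k) * b * a ^ k := by group
      _ = (c ^ k * a) * b * a ^ k := by rw [(hac.pow_right k).eq]
      _ = c ^ k * (a * b) * a ^ k := by group
      _ = c ^ k * (c * b * a) * a ^ k := by rw [h]
      _ = c ^ (k + 1) * b * a ^ (k + 1) := by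
        rw [pow_succ c k, pow_succ' a k]
        simp only [mul_assoc]

theorem mul_pow_eq_aux {D : Type*} [Group D] {x y g : D} (hxg : Commute x g) (hyg : Commute y g) (h : y * x = g * x * y)
    (n : ℕ) : (x * y) ^ n = g ^ (n.choose 2) * x ^ n * y ^ n := by
  induction n with
  | zero => simp
  | succ n ih =>
    have h1 : y ^ n * x = g ^ n * x * y ^ n := pow_mul_eq_aux hyg h n
    have h2 : (n + 1).choose 2 = n.choose 2 + n := by
      rw [Nat.choose_succ_succ' n 1, Nat.choose_one_right]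
      ring
    calc (x * y) ^ (n + 1) = (x * y) ^ n * (x * y) := pow_succ _ _
      _ = g ^ (n.choose 2) * x ^ n * (y ^ n * x) * y := by rw [ih]; simp only [mul_assoc]
      _ = g ^ (n.choose 2) * x ^ n * (g ^ n * x * y ^ n) * y := by rw [h1]
      _ = g ^ (n.choose 2) * (x ^ n * g ^ n) * x * y ^ n * y := by simp only [mul_assoc]
      _ = g ^ (n.choose 2) * (g ^ n * x ^ n) * x * y ^ n * y := by
        rw [((hxg.pow_pow n n)).eq]
      _ = g ^ (n + 1).choose 2 * x ^ (n + 1) * y ^ (n + 1) := by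
        rw [h2, pow_add, pow_succ x n, pow_succ y n]
        simp only [mul_assoc]

variable {Γ : Type*} [Group Γ] [Finite Γ] {p : ℕ} [hp : Fact p.Prime] {P T : Subgroup Γ} {h : Γ}
  [hPn : P.Normal] [hTn : T.Normal]

/-- `[γ₂, γ₂] ≤ γ₄`. -/
lemma comm_lcs : ⁅P.lowerCentralSeries 1, P.lowerCentralSeries 1⁆ ≤ P.lowerCentralSeries 3 := by
  let M := P.lowerCentralSeries 3
  let φ := QuotientGroup.mk' M
  have hM : ∀ S : Subgroup Γ, S.map φ = ⊥ ↔ S ≤ M := by
    intro S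
    rw [Subgroup.map_eq_bot_iff, QuotientGroup.ker_mk']
  have h3 : ⁅⁅P.lowerCentralSeries 1, P⁆, P⁆ = M := rfl
  have e1 : ⁅⁅P.map φ, (P.lowerCentralSeries 1).map φ⁆, P.map φ⁆ = ⊥ := by
    rw [← Subgroup.map_commutator, ← Subgroup.map_commutator, hM, Subgroup.commutator_comm P, h3]
  have e2 : ⁅⁅(P.lowerCentralSeries 1).map φ, P.map φ⁆, P.map φ⁆ = ⊥ := by
    rw [← Subgroup.map_commutator, ← Subgroup.map_commutator, hM, h3]
  have e3 := Subgroup.commutator_commutator_eq_bot_of_rotate e1 e2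
  rw [← Subgroup.map_commutator, ← Subgroup.map_commutator, hM] at e3
  exact e3

section Large3

variable (hc : Core p P T h) (h2 : 2 < Nat.card (P.map (QuotientGroup.mk' T)))
include hc h2

/-- A lift of an element of order `r ^ s` of the complement. -/
lemma Core.exists_beta {r s n : ℕ} (hr : r.Prime) (hrp : r ≠ p) (hs : 0 < s) 
    (hq : Nat.card (P.map (QuotientGroup.mk' T)) = p ^ n) (hdvd : r ^ s ∣ p ^ n - 1) :
    ∃ β : Γ, β ^ r ^ s = 1 ∧ β ^ r ^ (s - 1) ∉ P := by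
  classical
  obtain ⟨-, A, hAab, hAfpf, hA1, hA2⟩ := hc.seitz.exists_compl h2
  have hd := hc.seitz
  have hV : P.map (QuotientGroup.mk' T) ≠ ⊥ := by
    intro h0
    rw [h0] at h2
    simp at h2
  haveI hVn : (P.map (QuotientGroup.mk' T)).Normal :=
    Subgroup.Normal.map hPn _ (QuotientGroup.mk'_surjective T)
  have hcyc : IsCyclic A := Cfsg.Agent.Lib.FPF.Concrete.isCyclic_of_comm A _ hd.ab hV (by
    rw [normalizer_eq_top]; exact le_top) hAfpf hAab
  obtain ⟨g₀, hg₀⟩ := IsCyclic.exists_generator (α := A)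
  have hord : orderOf g₀ = Nat.card A := orderOf_eq_card_of_forall_mem_zpowers hg₀
  have hA3 : r ^ s ∣ orderOf g₀ := by
    rw [hord]
    have : Nat.card A = p ^ n - 1 := by omega
    rwa [this]
  have hA0 : orderOf g₀ ≠ 0 := (orderOf_pos g₀).ne'
  have ha := orderOf_pow_orderOf_div hA0 hA3
  set a := g₀ ^ (orderOf g₀ / r ^ s) with hadef
  obtain ⟨β₀, hβ₀⟩ := QuotientGroup.mk_surjective (a : Γ ⧸ T)
  have ho0 : orderOf β₀ ≠ 0 := (orderOf_pos β₀).ne'
  obtain ⟨t, m, hm, hom⟩ := Nat.exists_eq_pow_mul_and_not_dvd ho0 r hr.ne_one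
  set β := β₀ ^ m with hβ
  have hcop : (r ^ s).Coprime m := Nat.Coprime.pow_left _ ((Nat.Prime.coprime_iff_not_dvd hr).2 hm)
  have haord : orderOf (a : Γ ⧸ T) = r ^ s := by
    rw [Subgroup.orderOf_coe, ha]
  have hmk : ((β : Γ) : Γ ⧸ T) = (a : Γ ⧸ T) ^ m := by
    rw [hβ, QuotientGroup.mk_pow, hβ₀]
  have hordβ : orderOf ((β : Γ) : Γ ⧸ T) = r ^ s := by
    rw [hmk, Nat.Coprime.orderOf_pow (by rwa [haord]), haord]
  have hβt : β ^ r ^ t = 1 := by
    rw [hβ, ← pow_mul, mul_comm, ← hom, pow_orderOf_eq_one]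
  have hβs : β ^ r ^ s = 1 := by
    have h3 : β ^ r ^ s ∈ T := by
      rw [← QuotientGroup.eq_one_iff, QuotientGroup.mk_pow, ← hordβ, pow_orderOf_eq_one]
    obtain ⟨b, hb⟩ := hc.hPp ⟨_, hc.hTP h3⟩
    have hb' : (β ^ r ^ s) ^ p ^ b = 1 := congrArg Subtype.val hb
    have h4 : (β ^ r ^ s) ^ r ^ t = 1 := by
      rw [← pow_mul, mul_comm, pow_mul, hβt, one_pow]
    have hcop2 : Nat.Coprime (r ^ t) (p ^ b) := Nat.Coprime.pow _ _ ((Nat.coprime_primes hr hp.out).2 hrp)
    have h5 := Nat.eq_one_of_dvd_coprimes hcop2 (orderOf_dvd_of_pow_eq_one h4) (orderOf_dvd_of_pow_eq_one hb')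
    exact orderOf_eq_one_iff.1 h5
  refine ⟨β, hβs, ?_⟩
  intro hcP
  have hcne : β ^ r ^ (s - 1) ≠ 1 := by
    intro h1
    have h3 : ((β : Γ) : Γ ⧸ T) ^ r ^ (s - 1) = 1 := by
      rw [← QuotientGroup.mk_pow, h1]; rfl
    have h4 := orderOf_dvd_of_pow_eq_one h3
    rw [hordβ] at h4
    have h5 := (Nat.pow_dvd_pow_iff_le_right hr.one_lt).1 h4
    omega
  obtain ⟨b, hb⟩ := hc.hPp ⟨_, hcP⟩
  have hb' : (β ^ r ^ (s - 1)) ^ p ^ b = 1 := congrArg Subtype.val hb
  have h4 : (β ^ r ^ (s - 1)) ^ r = 1 := by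
    rw [← pow_mul, ← pow_succ]
    have : s - 1 + 1 = s := by omega
    rw [this]; exact hβs
  have hcop2 : Nat.Coprime r (p ^ b) := Nat.Coprime.pow_right _ ((Nat.coprime_primes hr hp.out).2 hrp)
  have h5 := Nat.eq_one_of_dvd_coprimes hcop2 (orderOf_dvd_of_pow_eq_one h4) (orderOf_dvd_of_pow_eq_one hb')
  exact hcne (orderOf_eq_one_iff.1 h5)

/-- `V → V`, `v ↦ [c, v]` is onto. -/
lemma Core.exists_comm_eq {c : Γ} (hcP : c ∉ P) {x : Γ} (hx : x ∈ P) :
    ∃ x₁ ∈ P, ∃ t ∈ T, x = (c * x₁ * c⁻¹ * x₁⁻¹) * t := by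
  classical
  obtain ⟨hQ, -⟩ := hc.seitz.exists_compl h2
  have hd := hc.seitz
  set V := P.map (QuotientGroup.mk' T) with hV
  haveI hVn : V.Normal := Subgroup.Normal.map hPn _ (QuotientGroup.mk'_surjective T)
  set b : Γ ⧸ T := (c : Γ ⧸ T) with hb
  have hbV : b ∉ V := fun h1 => hcP ((hc.mem_map_mk c).1 h1)
  let ψ : V → V := fun v => ⟨b * v * b⁻¹ * (v : Γ ⧸ T)⁻¹, V.mul_mem (hVn.conj_mem _ v.2 b) (V.inv_mem v.2)⟩
  have hinj : Function.Injective ψ := by
    intro u v huv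
    have h1 : b * (u : Γ ⧸ T) * b⁻¹ * (u : Γ ⧸ T)⁻¹ = b * v * b⁻¹ * (v : Γ ⧸ T)⁻¹ :=
      congrArg Subtype.val huv
    set w := (v : Γ ⧸ T)⁻¹ * (u : Γ ⧸ T) with hw
    have hwV : w ∈ V := V.mul_mem (V.inv_mem v.2) u.2
    have hcomm1 := hd.ab _ (hVn.conj_mem _ v.2 b) _ (V.inv_mem u.2)
    have hcomm2 := hd.ab _ (V.inv_mem v.2) _ u.2
    have h3 : b * w = w * b := by
      have e1 : b * (u : Γ ⧸ T) * b⁻¹ = b * v * b⁻¹ * (v : Γ ⧸ T)⁻¹ * u := by
        rw [← h1]; group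
      have e2 : b * w * b⁻¹ = w := by
        calc b * w * b⁻¹ = (b * (v : Γ ⧸ T) * b⁻¹)⁻¹ * (b * (u : Γ ⧸ T) * b⁻¹) := by
              rw [hw]; group
          _ = (b * (v : Γ ⧸ T) * b⁻¹)⁻¹ * (b * v * b⁻¹ * (v : Γ ⧸ T)⁻¹ * u) := by rw [e1]
          _ = w := by rw [hw]; group
      calc b * w = b * w * b⁻¹ * b := by group
        _ = w * b := by rw [e2]
    by_contra hne
    have hw1 : w ≠ 1 := by
      intro h4
      apply hne
      apply Subtype.ext
      have := inv_mul_eq_one.1 h4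
      exact this.symm
    exact hbV (hQ b w hwV hw1 h3)
  have hsurj := Finite.injective_iff_surjective.1 hinj
  obtain ⟨⟨u, hu⟩, hψ⟩ := hsurj ⟨(x : Γ ⧸ T), ⟨x, hx, rfl⟩⟩
  obtain ⟨x₁, hx₁, rfl⟩ := hu
  refine ⟨x₁, hx₁, (c * x₁ * c⁻¹ * x₁⁻¹)⁻¹ * x, ?_, by group⟩
  have h1 : ((c * x₁ * c⁻¹ * x₁⁻¹ : Γ) : Γ ⧸ T) = (x : Γ ⧸ T) := congrArg Subtype.val hψ
  exact QuotientGroup.eq.1 h1

/-- The case of class at most two. -/
lemma Core.of_class_two (hL2 : ⁅T, P⁆ = ⊥) : h ^ p = 1 ∨ (p = 2 ∧ h ^ 4 = 1) := by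
  classical
  have hcent : ∀ t ∈ T, ∀ x ∈ P, t * x = x * t := by
    intro t ht x hx
    have h1 : ⁅t, x⁆ ∈ ⁅T, P⁆ := Subgroup.commutator_mem_commutator ht hx
    rw [hL2, mem_bot] at h1
    exact commutatorElement_eq_one_iff_mul_comm.1 h1
  have hL1 := hc.lcs_one h2
  -- commutators have order dividing p
  have hcomm_T : ∀ x ∈ P, ∀ y ∈ P, y * x * y⁻¹ * x⁻¹ ∈ T := fun x hx y hy => hc.comm_P hx hy
  have hpowcomm : ∀ x ∈ P, ∀ y ∈ P, (x * y * x⁻¹ * y⁻¹) ^ p = 1 := by
    intro x hx y hy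
    set g := x * y * x⁻¹ * y⁻¹ with hg
    have hgT : g ∈ T := hcomm_T y hy x hx
    have hind : ∀ n : ℕ, x ^ n * y * (x ^ n)⁻¹ * y⁻¹ = g ^ n := by
      intro n
      induction n with
      | zero => simp
      | succ n ih =>
        have e1 : x ^ (n + 1) * y * (x ^ (n + 1))⁻¹ * y⁻¹ =
            x * (x ^ n * y * (x ^ n)⁻¹ * y⁻¹) * y * x⁻¹ * y⁻¹ := by
          rw [pow_succ']; group
        rw [e1, ih]
        have hgnT : g ^ n ∈ T := T.pow_mem hgT n
        have e2 : x * g ^ n = g ^ n * x := (hcent _ hgnT x hx).symm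
        rw [e2, pow_succ, hg]
        group
    have h3 := hind p
    have h4 : x ^ p * y = y * x ^ p := hcent _ (hc.pow_P hx) y hy
    rw [h4] at h3
    rw [← h3]
    group
  have hTexp : ∀ t ∈ T, t ^ p = 1 := by
    intro t ht
    rw [← hL1] at ht
    have hle : (P.lowerCentralSeries 1 : Subgroup Γ) ≤ T := hL1.le
    change t ∈ ⁅P.lowerCentralSeries 0, P⁆ at ht
    rw [Subgroup.commutator_def] at ht
    induction ht using closure_induction with
    | mem x hx =>
      obtain ⟨a, ha, b, hb, rfl⟩ := hx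
      exact hpowcomm a ha b hb
    | one => simp
    | mul x y hx hy ihx ihy =>
      have hxT : x ∈ T := by
        rw [← Subgroup.commutator_def] at hx
        exact hle hx
      have hyT : y ∈ T := by
        rw [← Subgroup.commutator_def] at hy
        exact hle hy
      have hxy : Commute x y := hcent x hxT y (hc.hTP hyT)
      rw [hxy.mul_pow, ihx, ihy, one_mul]
    | inv x hx ihx => rw [inv_pow, ihx, inv_one]
  by_cases hp2 : p = 2
  · right
    refine ⟨hp2, ?_⟩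
    have h3 := hTexp _ (hc.pow_P hc.hh)
    rw [hp2] at h3
    rw [← pow_mul] at h3
    exact h3
  · left
    have hp3 : 2 < p := lt_of_le_of_ne hp.out.two_le (Ne.symm hp2)
    -- the power map is a homomorphism
    have hmulpow : ∀ x ∈ P, ∀ y ∈ P, (x * y) ^ p = x ^ p * y ^ p := by
      intro x hx y hy
      set g := y * x * y⁻¹ * x⁻¹ with hg
      have hgT : g ∈ T := hcomm_T x hx y hy
      have h3 := Cfsg.Agent.Lib.NC.Core.mul_pow_eq_aux (x := x) (y := y) (g := g)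
        (hcent g hgT x hx).symm (hcent g hgT y hy).symm (by rw [hg]; group) p
      have h4 : p ∣ p.choose 2 := hp.out.dvd_choose_self (by norm_num) hp3
      obtain ⟨k, hk⟩ := h4
      rw [h3, hk, pow_mul, hTexp g hgT, one_pow, one_mul]
    let ϕ : P →* T :=
      { toFun := fun x => ⟨(x : Γ) ^ p, hc.pow_P x.2⟩
        map_one' := by
          apply Subtype.ext
          simp
        map_mul' := by
          intro x y
          apply Subtype.ext
          exact hmulpow x x.2 y y.2 }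
    by_contra hhp
    have hker : ∀ x : P, ϕ x = 1 → (x : Γ) ∈ T := by
      intro x hx
      by_contra hxT
      have h3 : (x : Γ) ^ p = 1 := congrArg Subtype.val hx
      obtain ⟨a, ha⟩ := isConj_iff.1 (hc.ha x x.2 hxT)
      apply hhp
      have e : h = a⁻¹ * x * a := by rw [← ha]; group
      rw [e]
      have e2 : (a⁻¹ * (x : Γ) * a) ^ p = a⁻¹ * (x : Γ) ^ p * a := by
        have := conj_pow (a := a⁻¹) (b := (x : Γ)) (i := p)
        simpa using this
      rw [e2, h3]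
      group
    have hcard1 : Nat.card P = Nat.card ϕ.ker * Nat.card ϕ.range := by
      rw [mul_comm, Nat.card_congr (QuotientGroup.quotientKerEquivRange ϕ).symm.toEquiv]
      exact Subgroup.card_eq_card_quotient_mul_card_subgroup _
    have hcard2 : Nat.card ϕ.ker ≤ Nat.card T := by
      apply Nat.card_le_card_of_injective (fun x : ϕ.ker => (⟨(x : P), hker x x.2⟩ : T))
      intro a b hab
      apply Subtype.ext
      apply Subtype.ext
      have h7 := congrArg Subtype.val hab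
      exact h7
    have hcard3 : Nat.card ϕ.range ≤ Nat.card T := Subgroup.card_le_card_group _
    have hbound := hc.section_bound h2 (N₁ := ⊥) (N₂ := T) le_rfl (by rw [hL2]) bot_le
    rw [Subgroup.card_bot, mul_one] at hbound
    have hP := hc.card_P
    have hTpos : 0 < Nat.card T := Nat.card_pos
    have hlt : Nat.card T < Nat.card (P.map (QuotientGroup.mk' T)) := by
      have : 2 * Nat.card T ≤ p * Nat.card T := Nat.mul_le_mul_right _ hp.out.two_le
      omega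
    have h5 : Nat.card P ≤ Nat.card T * Nat.card T := by
      rw [hcard1]
      exact Nat.mul_le_mul hcard2 hcard3
    rw [← hP] at h5
    have h6 := Nat.le_of_mul_le_mul_left h5 hTpos
    omega

/-- The main result when `|P : T| > 2`. -/
theorem Core.large : h ^ p = 1 ∨ (p = 2 ∧ h ^ 4 = 1) := by
  classical
  have hL1 := hc.lcs_one h2
  obtain ⟨n, hn⟩ := IsPGroup.iff_card.1 (hc.hPp.map (QuotientGroup.mk' T))
  have hnpos : n ≠ 0 := by
    rintro rfl
    rw [hn, pow_zero] at h2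
    omega
  by_cases hn1 : n = 1
  · subst hn1
    have hb := hc.section_bound h2 (N₁ := P.lowerCentralSeries 2) (N₂ := T) le_rfl (by
      rw [← hL1]; exact le_rfl) (by
      rw [← hL1]
      exact Subgroup.lowerCentralSeries_antitone P (by norm_num))
    rw [hn, pow_one] at hb
    have hb2 := Nat.le_of_mul_le_mul_left hb hp.out.pos
    have hle : P.lowerCentralSeries 2 ≤ T := by
      rw [← hL1]
      exact Subgroup.lowerCentralSeries_antitone P (by norm_num)
    have heq := Subgroup.eq_of_le_of_card_ge hle hb2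
    have hT0 : T = ⊥ := by
      apply eq_bot_of_le_comm hc.hPp hc.hTP
      have : P.lowerCentralSeries 2 = ⁅P.lowerCentralSeries 1, P⁆ := rfl
      rw [hL1] at this
      rw [← this, heq]
    left
    have h3 := hc.pow_P hc.hh
    rw [hT0, mem_bot] at h3
    exact h3
  · have hn2 : 2 ≤ n := by omega
    obtain ⟨r, s, hr, hs, hrp, hrd, hrk⟩ := exists_rho hp.out hn2
    obtain ⟨β, hβ, hcP⟩ := hc.exists_beta h2 hr hrp hs hn hrd
    set c := β ^ r ^ (s - 1) with hcdef
    have hcT : ∀ t ∈ T, c * t = t * c := fun t ht => hc.c_central h2 β hr hrp hs hβ hn hrk ht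
    -- the commutators with `c` centralize `T`
    have hyT : ∀ x₁ ∈ P, ∀ t ∈ T, (c * x₁ * c⁻¹ * x₁⁻¹) * t = t * (c * x₁ * c⁻¹ * x₁⁻¹) := by
      intro x₁ hx₁ t ht
      have ht₁ : x₁⁻¹ * t * x₁ ∈ T := by simpa using hTn.conj_mem t ht x₁⁻¹
      set t₁ := x₁⁻¹ * t * x₁ with ht₁def
      have e1 : c⁻¹ * t₁ = t₁ * c⁻¹ := by
        have := hcT t₁ ht₁
        have e : c⁻¹ * t₁ = c⁻¹ * (t₁ * c) * c⁻¹ := by group
        rw [e, ← this]; group
      have e2 : x₁⁻¹ * t = t₁ * x₁⁻¹ := by rw [ht₁def]; group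
      have e3 : x₁ * t₁ = t * x₁ := by rw [ht₁def]; group
      calc (c * x₁ * c⁻¹ * x₁⁻¹) * t = c * x₁ * c⁻¹ * (x₁⁻¹ * t) := by group
        _ = c * x₁ * (c⁻¹ * t₁) * x₁⁻¹ := by rw [e2]; group
        _ = c * (x₁ * t₁) * c⁻¹ * x₁⁻¹ := by rw [e1]; group
        _ = (c * t) * x₁ * c⁻¹ * x₁⁻¹ := by rw [e3]; group
        _ = (t * c) * x₁ * c⁻¹ * x₁⁻¹ := by rw [hcT t ht]
        _ = _ := by group
    -- `γ₃ = γ₄`
    have hL23 : ⁅T, P⁆ ≤ ⁅⁅T, P⁆, P⁆ := by
      rw [commutator_le]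
      intro t ht x hx
      obtain ⟨x₁, hx₁, t₁, ht₁, rfl⟩ := hc.exists_comm_eq h2 hcP hx
      set y := c * x₁ * c⁻¹ * x₁⁻¹ with hy
      have hyP : y ∈ P := by
        have h3 : y = c * x₁ * c⁻¹ * x₁⁻¹ := rfl
        have h4 := hPn.conj_mem _ hx₁ c
        exact P.mul_mem h4 (P.inv_mem hx₁)
      have h3 : ⁅t, y * t₁⁆ = y * ⁅t, t₁⁆ * y⁻¹ := by
        have h4 := hyT x₁ hx₁ t ht
        rw [← hy] at h4
        rw [commutatorElement_def, commutatorElement_def]
        calc t * (y * t₁) * t⁻¹ * (y * t₁)⁻¹ = (t * y) * t₁ * t⁻¹ * t₁⁻¹ * y⁻¹ := by group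
          _ = (y * t) * t₁ * t⁻¹ * t₁⁻¹ * y⁻¹ := by rw [h4]
          _ = _ := by group
      rw [h3]
      have h5 : ⁅t, t₁⁆ ∈ ⁅⁅T, P⁆, P⁆ := by
        have h6 := comm_lcs (P := P)
        rw [hL1] at h6
        have h7 : P.lowerCentralSeries 3 = ⁅⁅T, P⁆, P⁆ := by
          have : P.lowerCentralSeries 3 = ⁅⁅P.lowerCentralSeries 1, P⁆, P⁆ := rfl
          rw [this, hL1]
        rw [h7] at h6
        exact h6 (Subgroup.commutator_mem_commutator ht ht₁)
      haveI : (T : Subgroup Γ).Normal := hTn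
      have h8 : (⁅⁅T, P⁆, P⁆ : Subgroup Γ).Normal := by
        haveI : (⁅T, P⁆ : Subgroup Γ).Normal := Subgroup.commutator_normal _ _
        exact Subgroup.commutator_normal _ _
      exact h8.conj_mem _ h5 y
    have hL2 : ⁅T, P⁆ = ⊥ := by
      apply eq_bot_of_le_comm hc.hPp _ hL23
      exact (Subgroup.commutator_le_right _ _)
    exact hc.of_class_two h2 hL2

end Large3

end Cfsg.Agent.Lib.NC.Core
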