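import Cfsg.Agent.Lib.Char.Complete
import Cfsg.Agent.Lib.FGStruct.Camina
import Cfsg.Agent.Lib.FPF.Concrete

/-!
# Groups with a normal subgroup `V`, one class on `V ∖ 1`, and `a V ⊆ a^X` for `a ∉ V`

Structure of `X` when `|V| > 2`: `C_X(v) = V` and `X` is a split extension of `V` by an abelian group `A`
acting regularly on `V ∖ 1`.
-/

set_option autoImplicit false
set_option linter.unusedSectionVars false

namespace Cfsg.Agent.Lib.NC.Seitz

open Subgroup
open scoped commutatorElement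

variable {X : Type*} [Group X] (V : Subgroup X)

/-- The data. -/
structure SeitzData : Prop where
  ab : ∀ u ∈ V, ∀ v ∈ V, u * v = v * u
  comm : ∀ x y : X, x * y * x⁻¹ * y⁻¹ ∈ V
  conj : ∀ u ∈ V, ∀ v ∈ V, u ≠ 1 → v ≠ 1 → IsConj u v
  camina : ∀ a, a ∉ V → ∀ v ∈ V, ∃ y, y * a * y⁻¹ = a * v

variable {V}

/-- If an element centralizes a nontrivial element of `V` it centralizes `V`. -/
lemma SeitzData.central_of_fix (hd : SeitzData V) {a v₁ : X} (hv₁ : v₁ ∈ V) (hv₁1 : v₁ ≠ 1)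
    (ha : a * v₁ = v₁ * a) : ∀ v ∈ V, a * v = v * a := by
  intro v hv
  by_cases hv1 : v = 1
  · subst hv1; simp
  obtain ⟨y, rfl⟩ := isConj_iff.1 (hd.conj v₁ hv₁ v hv hv₁1 hv1)
  have hu := hd.comm y a
  set u := y * a * y⁻¹ * a⁻¹ with hu'
  have e1 : y * a * y⁻¹ = u * a := by rw [hu']; group
  have e2 : (y * a * y⁻¹) * (y * v₁ * y⁻¹) = (y * v₁ * y⁻¹) * (y * a * y⁻¹) := by
    have : (y * a * y⁻¹) * (y * v₁ * y⁻¹) = y * (a * v₁) * y⁻¹ := by group
    rw [this, ha]; group
  rw [e1] at e2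
  have e3 := hd.ab u hu _ hv
  have e4 : u * (a * (y * v₁ * y⁻¹)) = u * ((y * v₁ * y⁻¹) * a) := by
    calc u * (a * (y * v₁ * y⁻¹)) = u * a * (y * v₁ * y⁻¹) := by group
      _ = y * v₁ * y⁻¹ * (u * a) := e2
      _ = (y * v₁ * y⁻¹ * u) * a := by group
      _ = (u * (y * v₁ * y⁻¹)) * a := by rw [e3]
      _ = _ := by group
  exact mul_left_cancel e4

/-- Two distinct nontrivial elements. -/
lemma exists_two_ne (V : Subgroup X) [Finite V] (h2 : 2 < Nat.card V) :
    ∃ u ∈ V, ∃ v ∈ V, u ≠ 1 ∧ v ≠ 1 ∧ u ≠ v := by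
  classical
  haveI := Fintype.ofFinite V
  rw [Nat.card_eq_fintype_card, Fintype.two_lt_card_iff] at h2
  obtain ⟨a, b, c, hab, hac, hbc⟩ := h2
  refine ⟨(a : X)⁻¹ * b, V.mul_mem (V.inv_mem a.2) b.2, (a : X)⁻¹ * c, V.mul_mem (V.inv_mem a.2) c.2, ?_, ?_, ?_⟩
  · intro h
    apply hab
    apply Subtype.ext
    exact inv_mul_eq_one.1 h
  · intro h
    apply hac
    apply Subtype.ext
    exact inv_mul_eq_one.1 h
  · intro h
    apply hbc
    apply Subtype.ext
    exact mul_left_cancel h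

/-- An element not centralizing `V`. -/
lemma SeitzData.exists_not_central [Finite V] (hd : SeitzData V) (h2 : 2 < Nat.card V) :
    ∃ a, ∃ v ∈ V, a * v ≠ v * a := by
  by_contra hcon
  push Not at hcon
  obtain ⟨u, hu, v, hv, hu1, hv1, huv⟩ := exists_two_ne V h2
  obtain ⟨y, rfl⟩ := isConj_iff.1 (hd.conj u hu v hv hu1 hv1)
  apply huv
  rw [hcon y u hu]
  group

/-- Conjugates of an element outside `V`. -/
lemma SeitzData.card_centralizer [Finite X] (hd : SeitzData V) {a : X} (ha : a ∉ V) :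
    Nat.card (centralizer ({a} : Set X)) * Nat.card V = Nat.card X := by
  have h1 := Cfsg.Agent.Lib.Char.Complete.card_isConj_mul_card_centralizer a
  have h2 : Nat.card {x : X // IsConj x a} = Nat.card V := by
    refine Nat.card_congr ⟨fun x => ⟨a⁻¹ * x, ?_⟩, fun v => ⟨a * v, ?_⟩, ?_, ?_⟩
    · obtain ⟨y, hy⟩ := isConj_iff.1 (x.2.symm)
      have hx : (x : X) = y * a * y⁻¹ := hy.symm
      rw [hx]
      have h3 := hd.comm y a
      have h4 : a⁻¹ * (y * a * y⁻¹) = a⁻¹ * (y * a * y⁻¹ * a⁻¹) * a⁻¹⁻¹ := by group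
      rw [h4]
      haveI : V.Normal := ⟨fun n hn g => ?_⟩
      · exact Subgroup.Normal.conj_mem inferInstance _ h3 _
      · have h5 := hd.comm g n
        have h6 : g * n * g⁻¹ = (g * n * g⁻¹ * n⁻¹) * n := by group
        rw [h6]
        exact V.mul_mem h5 hn
    · obtain ⟨y, hy⟩ := hd.camina a ha v v.2
      exact (isConj_iff.2 ⟨y, hy⟩).symm
    · intro x
      apply Subtype.ext
      simp
    · intro v
      apply Subtype.ext
      simp
  rw [h2] at h1
  rw [mul_comm]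
  exact h1

/-- Main structure theorem. -/
theorem SeitzData.exists_compl [Finite X] (hd : SeitzData V) (h2 : 2 < Nat.card V) :
    (∀ a, ∀ v ∈ V, v ≠ 1 → a * v = v * a → a ∈ V) ∧
    ∃ A : Subgroup X, (∀ a ∈ A, ∀ b ∈ A, a * b = b * a) ∧
      (∀ a ∈ A, a ≠ 1 → ∀ v ∈ V, a * v = v * a → v = 1) ∧
      Nat.card A * Nat.card V = Nat.card X ∧ Nat.card A + 1 = Nat.card V := by
  classical
  obtain ⟨a₀, v₀, hv₀, ha₀⟩ := hd.exists_not_central h2
  have ha₀V : a₀ ∉ V := fun h => ha₀ (hd.ab _ h _ hv₀)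
  have hv₀1 : v₀ ≠ 1 := by
    rintro rfl
    simp at ha₀
  set A := centralizer ({a₀} : Set X) with hA
  have hmemA : ∀ x, x ∈ A ↔ x * a₀ = a₀ * x := fun x => mem_centralizer_singleton_iff
  have hAV : ∀ a ∈ A, a ∈ V → a = 1 := by
    intro a haA haV
    by_contra hne
    have h1 := hd.central_of_fix haV hne ((hmemA a).1 haA).symm v₀ hv₀
    exact ha₀ h1
  have hcard := hd.card_centralizer ha₀V
  have hdec : ∀ x : X, ∃ a ∈ A, ∃ v ∈ V, x = a * v := by
    let f : A × V → X := fun q => (q.1 : X) * q.2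
    have hinj : Function.Injective f := by
      rintro ⟨⟨a, ha⟩, ⟨v, hv⟩⟩ ⟨⟨b, hb⟩, ⟨w, hw⟩⟩ h
      have h0 : a * v = b * w := h
      have h1 : b⁻¹ * a = w * v⁻¹ := by
        calc b⁻¹ * a = b⁻¹ * (a * v) * v⁻¹ := by group
          _ = b⁻¹ * (b * w) * v⁻¹ := by rw [h0]
          _ = _ := by group
      have h3 : b⁻¹ * a = 1 := hAV _ (A.mul_mem (A.inv_mem hb) ha) (by
        rw [h1]; exact V.mul_mem hw (V.inv_mem hv))
      have h4 : a = b := by
        have := inv_mul_eq_one.1 h3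
        exact this.symm
      subst h4
      have h5 : v = w := mul_left_cancel h0
      subst h5
      rfl
    have hbij : Function.Bijective f := by
      refine (Nat.bijective_iff_injective_and_card f).2 ⟨hinj, ?_⟩
      rw [Nat.card_prod, hcard]
    intro x
    obtain ⟨⟨a, v⟩, hq⟩ := hbij.2 x
    exact ⟨a, a.2, v, v.2, hq.symm⟩
  have hAab : ∀ a ∈ A, ∀ b ∈ A, a * b = b * a := by
    intro a ha b hb
    have h1 : a * b * a⁻¹ * b⁻¹ ∈ A := A.mul_mem (A.mul_mem (A.mul_mem ha hb) (A.inv_mem ha)) (A.inv_mem hb)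
    have h3 := hAV _ h1 (hd.comm a b)
    have h4 : a * b * a⁻¹ * b⁻¹ * (b * a) = a * b := by group
    rw [h3, one_mul] at h4
    exact h4.symm
  have hZ : ∀ z ∈ A, (∀ v ∈ V, z * v = v * z) → z = 1 := by
    intro z hz hzV
    by_contra hne
    have hzV' : z ∉ V := fun h => hne (hAV z hz h)
    obtain ⟨y, hy⟩ := hd.camina z hzV' v₀ hv₀
    obtain ⟨a, ha, v, hv, rfl⟩ := hdec y
    have e : a * v * z * (a * v)⁻¹ = z := by
      have h1 := hzV v hv
      have h3 := hAab a ha z hz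
      calc a * v * z * (a * v)⁻¹ = a * (v * z) * v⁻¹ * a⁻¹ := by group
        _ = a * (z * v) * v⁻¹ * a⁻¹ := by rw [h1]
        _ = (a * z) * a⁻¹ := by group
        _ = (z * a) * a⁻¹ := by rw [h3]
        _ = z := by group
    rw [e] at hy
    exact hv₀1 (mul_left_cancel (a := z) (by rw [mul_one]; exact hy.symm))
  have hfpf : ∀ a ∈ A, a ≠ 1 → ∀ v ∈ V, a * v = v * a → v = 1 := by
    intro a ha ha1 v hv hav
    by_contra hv1
    exact ha1 (hZ a ha (hd.central_of_fix hv hv1 hav))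
  have hQ : ∀ a, ∀ v ∈ V, v ≠ 1 → a * v = v * a → a ∈ V := by
    intro a v hv hv1 hav
    have h1 := hd.central_of_fix hv hv1 hav
    obtain ⟨b, hb, w, hw, rfl⟩ := hdec a
    have h3 : b = 1 := by
      apply hZ b hb
      intro u hu
      have h4 := h1 u hu
      have h5 := hd.ab w hw u hu
      have h6 : b * (u * w) = u * b * w := by
        calc b * (u * w) = b * (w * u) := by rw [h5]
          _ = b * w * u := by group
          _ = u * (b * w) := h4
          _ = u * b * w := by group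
      have h7 : b * u * w = u * b * w := by rw [← h6]; group
      exact mul_right_cancel h7
    subst h3
    simpa using hw
  refine ⟨hQ, A, hAab, hfpf, hcard, ?_⟩
  -- the regular action
  let f : A → {v : V // v ≠ 1} := fun a => ⟨⟨a * v₀ * (a : X)⁻¹, by
      haveI : V.Normal := ⟨fun n hn g => by
        have h5 := hd.comm g n
        have h6 : g * n * g⁻¹ = (g * n * g⁻¹ * n⁻¹) * n := by group
        rw [h6]
        exact V.mul_mem h5 hn⟩
      exact Subgroup.Normal.conj_mem inferInstance _ hv₀ _⟩, by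
      intro h
      have h1 : (a : X) * v₀ * (a : X)⁻¹ = 1 := congrArg Subtype.val h
      apply hv₀1
      have h3 : (a : X) * v₀ = a := by
        have := congrArg (fun z => z * (a : X)) h1
        simpa using this
      exact mul_left_cancel (a := (a : X)) (by rw [mul_one]; exact h3)⟩
  have hfbij : Function.Bijective f := by
    constructor
    · intro a b hab
      have h1 : (a : X) * v₀ * (a : X)⁻¹ = b * v₀ * (b : X)⁻¹ :=
        congrArg (fun z : {v : V // v ≠ 1} => ((z : V) : X)) hab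
      have h3 : ((b : X)⁻¹ * a) * v₀ = v₀ * ((b : X)⁻¹ * a) := by
        calc ((b : X)⁻¹ * a) * v₀ = (b : X)⁻¹ * ((a : X) * v₀ * (a : X)⁻¹) * a := by group
          _ = (b : X)⁻¹ * (b * v₀ * (b : X)⁻¹) * a := by rw [h1]
          _ = _ := by group
      by_contra hne
      have h4 : (b : X)⁻¹ * a ≠ 1 := by
        intro h
        apply hne
        apply Subtype.ext
        exact (inv_mul_eq_one.1 h).symm
      exact hv₀1 (hfpf _ (A.mul_mem (A.inv_mem b.2) a.2) h4 v₀ hv₀ h3)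
    · rintro ⟨⟨v, hv⟩, hv1⟩
      have hv1' : v ≠ 1 := fun h => hv1 (Subtype.ext h)
      obtain ⟨y, hy⟩ := isConj_iff.1 (hd.conj v₀ hv₀ v hv hv₀1 hv1')
      obtain ⟨a, ha, w, hw, rfl⟩ := hdec y
      refine ⟨⟨a, ha⟩, ?_⟩
      apply Subtype.ext
      apply Subtype.ext
      show a * v₀ * a⁻¹ = v
      rw [← hy]
      have h5 := hd.ab w hw v₀ hv₀
      calc a * v₀ * a⁻¹ = a * (v₀ * w) * w⁻¹ * a⁻¹ := by group
        _ = a * (w * v₀) * w⁻¹ * a⁻¹ := by rw [h5]
        _ = _ := by group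
  have h3 : Nat.card A = Nat.card {v : V // v ≠ 1} := Nat.card_congr (Equiv.ofBijective f hfbij)
  rw [h3]
  have h4 : Nat.card V = Nat.card {v : V // v = 1} + Nat.card {v : V // ¬ v = 1} := by
    rw [← Nat.card_sum]
    exact Nat.card_congr (Equiv.sumCompl (fun v : V => v = 1)).symm
  have h5 : Nat.card {v : V // v = 1} = 1 := Nat.card_unique
  rw [h4, h5, add_comm]

end Cfsg.Agent.Lib.NC.Seitz
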