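import Cfsg.Agent.Lib.NC.Large2

/-!
# The core situation when `|P : T| = 2`
-/

set_option autoImplicit false
set_option linter.unusedSectionVars false

namespace Cfsg.Agent.Lib.NC.Core

open Subgroup Cfsg.Agent.Lib.NC.Seitz
open scoped commutatorElement

section Abstract

variable {X : Type*} [Group X]

/-- The extraspecial analysis: either the elements of square `v` generate, or the quotient has order 8
and is dihedral. -/
theorem exists_dihedral (v : X) (hv1 : v ≠ 1) (hv2 : v * v = 1) (hvc : ∀ x, x * v = v * x)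
    (hcomm : ∀ x y : X, x * y * x⁻¹ * y⁻¹ = 1 ∨ x * y * x⁻¹ * y⁻¹ = v)
    (hZ : ∀ a, a ≠ 1 → a ≠ v → ∃ y, y * a * y⁻¹ = a * v)
    (hsq : ∀ x : X, x * x = 1 ∨ x * x = v)
    (B : Subgroup X) (hB : ∀ x, x * x = v → x ∈ B) (hvB : v ∈ B) {x₀ : X} (hx₀ : x₀ ∉ B) :
    ∃ u w : X, u * u = 1 ∧ w * w = 1 ∧ u * w * u⁻¹ * w⁻¹ = v ∧
      ∀ x, ∃ a, (a = 1 ∨ a = u ∨ a = w ∨ a = w * u) ∧ (x = a ∨ x = a * v) := by
  have hvinv : v⁻¹ = v := inv_eq_of_mul_eq_one_left hv2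
  have hu1 : x₀ * x₀ = 1 := by
    rcases hsq x₀ with h | h
    · exact h
    · exact absurd (hB x₀ h) hx₀
  set u := x₀ with hu
  have huinv : u⁻¹ = u := inv_eq_of_mul_eq_one_left hu1
  have hune1 : u ≠ 1 := by
    rintro h
    exact hx₀ (h ▸ B.one_mem)
  have hunev : u ≠ v := by
    rintro h
    exact hx₀ (h ▸ hvB)
  -- centralizer of `u` has exponent 2
  have hCu : ∀ y, y * u = u * y → y * y = 1 := by
    intro y hy
    rcases hsq y with h | h
    · exact h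
    · exfalso
      have h1 : (u * y) * (u * y) = v := by
        calc (u * y) * (u * y) = u * (y * u) * y := by group
          _ = u * (u * y) * y := by rw [hy]
          _ = (u * u) * (y * y) := by group
          _ = v := by rw [hu1, h, one_mul]
      have h2 := hB _ h1
      have h3 := hB _ h
      have h4 : u = (u * y) * y⁻¹ := by group
      exact hx₀ (h4 ▸ B.mul_mem h2 (B.inv_mem h3))
  have hCab : ∀ y z, y * u = u * y → z * u = u * z → y * z = z * y := by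
    intro y z hy hz
    have h1 := hCu y hy
    have h2 := hCu z hz
    have h3 := hCu (y * z) (by
      calc y * z * u = y * (z * u) := by group
        _ = y * (u * z) := by rw [hz]
        _ = (y * u) * z := by group
        _ = (u * y) * z := by rw [hy]
        _ = _ := by group)
    have hyinv : y⁻¹ = y := inv_eq_of_mul_eq_one_left h1
    have hzinv : z⁻¹ = z := inv_eq_of_mul_eq_one_left h2
    have h4 : (y * z)⁻¹ = y * z := inv_eq_of_mul_eq_one_left h3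
    rw [mul_inv_rev, hyinv, hzinv] at h4
    exact h4.symm
  obtain ⟨w₀, hw₀⟩ := hZ u hune1 hunev
  have hw₀c : u * w₀ * u⁻¹ * w₀⁻¹ = v := by
    have h1 : w₀ * u⁻¹ * w₀⁻¹ = (w₀ * u * w₀⁻¹)⁻¹ := by group
    calc u * w₀ * u⁻¹ * w₀⁻¹ = u * (w₀ * u⁻¹ * w₀⁻¹) := by group
      _ = u * (u * v)⁻¹ := by rw [h1, hw₀]
      _ = u * v⁻¹ * u⁻¹ := by group
      _ = u * (v * u⁻¹) := by rw [hvinv]; group
      _ = u * (u⁻¹ * v) := by rw [hvc]
      _ = v := by group
  -- choosing `w`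
  obtain ⟨w, hw1, hw2⟩ : ∃ w, w * w = 1 ∧ u * w * u⁻¹ * w⁻¹ = v := by
    rcases hsq w₀ with h | h
    · exact ⟨w₀, h, hw₀c⟩
    · refine ⟨u * w₀, ?_, ?_⟩
      · have e1 : u * w₀ = v * (w₀ * u) := by
          calc u * w₀ = (u * w₀ * u⁻¹ * w₀⁻¹) * (w₀ * u) := by group
            _ = v * (w₀ * u) := by rw [hw₀c]
        calc (u * w₀) * (u * w₀) = (v * (w₀ * u)) * (u * w₀) := by rw [← e1]
          _ = v * w₀ * (u * u) * w₀ := by group
          _ = v * (w₀ * w₀) := by rw [hu1]; group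
          _ = 1 := by rw [h, hv2]
      · calc u * (u * w₀) * u⁻¹ * (u * w₀)⁻¹ = u * (u * w₀ * u⁻¹ * w₀⁻¹) * u⁻¹ := by group
          _ = u * v * u⁻¹ := by rw [hw₀c]
          _ = v * u * u⁻¹ := by rw [hvc]
          _ = v := by group
  have hwinv : w⁻¹ = w := inv_eq_of_mul_eq_one_left hw1
  refine ⟨u, w, hu1, hw1, hw2, ?_⟩
  intro x
  -- first step: `x = w^i x'` with `x'` commuting with `u`
  have hstep1 : ∀ x : X, ∃ x', x' * u = u * x' ∧ (x = x' ∨ x = w * x') := by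
    intro x
    rcases hcomm u x with h | h
    · refine ⟨x, ?_, Or.inl rfl⟩
      have h1 : u * x = (u * x * u⁻¹ * x⁻¹) * (x * u) := by group
      rw [h1, h, one_mul]
    · refine ⟨w⁻¹ * x, ?_, Or.inr (by group)⟩
      have h1 : u * (w⁻¹ * x) * u⁻¹ * (w⁻¹ * x)⁻¹ = 1 := by
        have e1 : u * w⁻¹ * u⁻¹ * w = (w⁻¹ * (u * w * u⁻¹ * w⁻¹) * w)⁻¹ := by group
        have e2 : u * w⁻¹ * u⁻¹ * w = v⁻¹ := by
          rw [e1, hw2]
          have : w⁻¹ * v * w = v := by rw [mul_assoc, ← hvc, ← mul_assoc]; group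
          rw [this]
        calc u * (w⁻¹ * x) * u⁻¹ * (w⁻¹ * x)⁻¹ = (u * w⁻¹ * u⁻¹ * w) * (w⁻¹ * (u * x * u⁻¹ * x⁻¹) * w) := by group
          _ = v⁻¹ * (w⁻¹ * v * w) := by rw [e2, h]
          _ = v⁻¹ * (w⁻¹ * (w * v)) := by rw [mul_assoc w⁻¹, hvc w]
          _ = 1 := by group
      have h2 : u * (w⁻¹ * x) = (u * (w⁻¹ * x) * u⁻¹ * (w⁻¹ * x)⁻¹) * ((w⁻¹ * x) * u) := by group
      rw [h2, h1, one_mul]
  obtain ⟨x', hx'u, hx'⟩ := hstep1 x
  -- second step: `x' = u^j x''` with `x''` commuting with `u` and `w`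
  have hstep2 : ∃ x'', x'' * u = u * x'' ∧ x'' * w = w * x'' ∧ (x' = x'' ∨ x' = u * x'') := by
    rcases hcomm x' w with h | h
    · refine ⟨x', hx'u, ?_, Or.inl rfl⟩
      have h1 : x' * w = (x' * w * x'⁻¹ * w⁻¹) * (w * x') := by group
      rw [h1, h, one_mul]
    · refine ⟨u⁻¹ * x', ?_, ?_, Or.inr (by group)⟩
      · calc u⁻¹ * x' * u = u⁻¹ * (x' * u) := by group
          _ = u⁻¹ * (u * x') := by rw [hx'u]
          _ = x' := by group
          _ = u * (u⁻¹ * x') := by group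
      · have h1 : u⁻¹ * x' * w * (u⁻¹ * x')⁻¹ * w⁻¹ = 1 := by
          have e1 : u⁻¹ * w * u * w⁻¹ = v := by
            have h3 := hw2
            rw [huinv] at h3
            rw [huinv]
            exact h3
          calc u⁻¹ * x' * w * (u⁻¹ * x')⁻¹ * w⁻¹ = u⁻¹ * (x' * w * x'⁻¹ * w⁻¹) * (w * u * w⁻¹) := by group
            _ = (u⁻¹ * v) * (w * u * w⁻¹) := by rw [h]
            _ = (v * u⁻¹) * (w * u * w⁻¹) := by rw [hvc]
            _ = v * (u⁻¹ * w * u * w⁻¹) := by group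
            _ = 1 := by rw [e1, hv2]
        have h2 : u⁻¹ * x' * w = (u⁻¹ * x' * w * (u⁻¹ * x')⁻¹ * w⁻¹) * (w * (u⁻¹ * x')) := by group
        rw [h2, h1, one_mul]
  obtain ⟨x'', hu'', hw'', hx''⟩ := hstep2
  have hcent : ∀ y, y * x'' = x'' * y := by
    intro y
    obtain ⟨y', hy'u, hy'⟩ := hstep1 y
    have h1 : y' * x'' = x'' * y' := hCab y' x'' hy'u hu''
    rcases hy' with rfl | rfl
    · exact h1
    · calc w * y' * x'' = w * (y' * x'') := by group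
        _ = w * (x'' * y') := by rw [h1]
        _ = (w * x'') * y' := by group
        _ = (x'' * w) * y' := by rw [hw'']
        _ = _ := by group
  have h1v : x'' = 1 ∨ x'' = v := by
    by_contra hcon
    push Not at hcon
    obtain ⟨y, hy⟩ := hZ x'' hcon.1 hcon.2
    rw [hcent y, mul_assoc, mul_inv_cancel, mul_one] at hy
    exact hv1 (mul_left_cancel (a := x'') (by rw [mul_one]; exact hy.symm))
  have hcomb : ∃ a, (a = 1 ∨ a = u ∨ a = w ∨ a = w * u) ∧ x = a * x'' := by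
    rcases hx' with rfl | rfl <;> rcases hx'' with rfl | rfl
    · exact ⟨1, Or.inl rfl, by group⟩
    · exact ⟨u, Or.inr (Or.inl rfl), rfl⟩
    · exact ⟨w, Or.inr (Or.inr (Or.inl rfl)), rfl⟩
    · exact ⟨w * u, Or.inr (Or.inr (Or.inr rfl)), by group⟩
  obtain ⟨a, ha, hax⟩ := hcomb
  refine ⟨a, ha, ?_⟩
  rcases h1v with h | h
  · left
    rw [hax, h, mul_one]
  · right
    rw [hax, h]

end Abstract

section Dihedral

variable {Γ : Type*} [Group Γ] [Finite Γ] {P T : Subgroup Γ} [hPn : P.Normal] [hTn : T.Normal]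

lemma zmod8_check : ∀ α β a b : ZMod 8, α ≠ 1 → β ≠ 1 → α ≠ β → α + 1 + 2 * a * β = 2 * a → 2 * a * α = 2 * a →
    1 + β + 2 * b = 2 * b * α → 2 * b * β = 2 * b → False := by
  decide

/-- Nilpotency: `S ≤ N ⊔ [S, G]` implies `S ≤ N`. -/
lemma le_of_le_sup_comm (hQ : IsPGroup 2 Γ) {S N : Subgroup Γ} [hN : N.Normal]
    (h : S ≤ N ⊔ ⁅S, (⊤ : Subgroup Γ)⁆) : S ≤ N := by
  let φ := QuotientGroup.mk' N
  have hnil : IsPGroup 2 (Γ ⧸ N) := hQ.to_quotient N
  haveI : Group.IsNilpotent (Γ ⧸ N) := hnil.isNilpotent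
  have h1 : S.map φ ≤ ⁅S.map φ, (⊤ : Subgroup (Γ ⧸ N))⁆ := by
    have h2 : (N ⊔ ⁅S, (⊤ : Subgroup Γ)⁆).map φ = ⁅S.map φ, (⊤ : Subgroup (Γ ⧸ N))⁆ := by
      rw [Subgroup.map_sup, Subgroup.map_commutator]
      have h3 : N.map φ = ⊥ := by
        rw [Subgroup.map_eq_bot_iff, QuotientGroup.ker_mk']
      have h4 : (⊤ : Subgroup Γ).map φ = ⊤ := by
        rw [← MonoidHom.range_eq_map, MonoidHom.range_eq_top]
        exact QuotientGroup.mk'_surjective N
      rw [h3, h4, bot_sup_eq]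
    rw [← h2]
    exact Subgroup.map_mono h
  have h5 : S.map φ = ⊥ := by
    by_contra hne
    exact Cfsg.Agent.Lib.FGStruct.Camina.not_le_commutator_top _ hne h1
  rw [Subgroup.map_eq_bot_iff, QuotientGroup.ker_mk'] at h5
  exact h5

/-- The dihedral case. -/
lemma Core.dihedral_case (hQ : IsPGroup 2 Γ) {g u w : Γ} (hc : Core 2 P T g) (hg : g = u * w * u⁻¹ * w⁻¹)
    (hu : u * u ∈ T) (hw : w * w ∈ T) (hPT2 : ∀ x ∈ P, x ∉ T → g⁻¹ * x ∈ T)
    (hV2 : Nat.card (P.map (QuotientGroup.mk' T)) = 2)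
    (hdec : ∀ y, ∃ a, (a = 1 ∨ a = u ∨ a = w ∨ a = w * u) ∧ a⁻¹ * y ∈ P) : g ^ 4 = 1 := by
  classical
  set M : Subgroup Γ := ⁅T, (⊤ : Subgroup Γ)⁆ with hM
  haveI hMn : M.Normal := Subgroup.commutator_normal _ _
  have h1 : (u * g * u⁻¹) * g ∈ M := by
    have e : (u * g * u⁻¹) * g = ⁅u * u, w⁆ := by
      rw [hg, commutatorElement_def]; group
    rw [e]
    exact Subgroup.commutator_mem_commutator hu (mem_top w)
  have h2 : (w * g * w⁻¹) * g ∈ M := by
    have e0 : g * (w * g * w⁻¹) = ⁅w * w, u⁆⁻¹ := by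
      rw [hg, commutatorElement_def]
      simp only [mul_inv_rev, inv_inv, mul_assoc, mul_inv_cancel_left, inv_mul_cancel_left, mul_inv_cancel, mul_one]
    have e1 : g * (w * g * w⁻¹) ∈ M := by
      rw [e0]
      exact M.inv_mem (Subgroup.commutator_mem_commutator hw (mem_top u))
    have e2 := hMn.conj_mem _ e1 g⁻¹
    have e3 : g⁻¹ * (g * (w * g * w⁻¹)) * g⁻¹⁻¹ = (w * g * w⁻¹) * g := by group
    rwa [e3] at e2
  let Φ₀ : Subgroup Γ := (frattini P).map P.subtype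
  haveI hΦn : Φ₀.Normal := by
    show ((frattini P).map P.subtype).Normal
    infer_instance
  have hPp : IsPGroup 2 P := hc.hPp
  have hΦsq : ∀ x ∈ P, x ^ 2 ∈ Φ₀ := by
    intro x hx
    exact ⟨⟨x, hx⟩ ^ 2, Cfsg.Agent.Lib.PGroups.Basic.pow_mem_frattini hPp _, rfl⟩
  have hΦc : ∀ x ∈ P, ∀ y ∈ P, x * y * x⁻¹ * y⁻¹ ∈ Φ₀ := by
    intro x hx y hy
    refine ⟨⁅(⟨x, hx⟩ : P), (⟨y, hy⟩ : P)⁆, ?_, ?_⟩
    · exact Cfsg.Agent.Lib.PGroups.Basic.commutator_le_frattini hPp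
        (Subgroup.commutator_mem_commutator (mem_top _) (mem_top _))
    · simp [commutatorElement_def]
  set R : Subgroup Γ := Φ₀ ⊔ M with hR
  haveI hRn : R.Normal := Subgroup.sup_normal _ _
  have hΦR : Φ₀ ≤ R := le_sup_left
  have hMR : M ≤ R := le_sup_right
  have hg2 : g ^ 2 ∈ R := hΦR (hΦsq g hc.hh)
  -- `g` is central modulo `R`
  have hcen : ∀ y : Γ, (y : Γ ⧸ R) * (g : Γ ⧸ R) = (g : Γ ⧸ R) * (y : Γ ⧸ R) := by
    have hgg : (g : Γ ⧸ R) * (g : Γ ⧸ R) = 1 := by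
      have : ((g ^ 2 : Γ) : Γ ⧸ R) = 1 := (QuotientGroup.eq_one_iff _).2 hg2
      rwa [pow_two] at this
    have hgi : (g : Γ ⧸ R)⁻¹ = (g : Γ ⧸ R) := inv_eq_of_mul_eq_one_left hgg
    have hcu : (u : Γ ⧸ R) * (g : Γ ⧸ R) = (g : Γ ⧸ R) * (u : Γ ⧸ R) := by
      have : (((u * g * u⁻¹) * g : Γ) : Γ ⧸ R) = 1 := (QuotientGroup.eq_one_iff _).2 (hMR h1)
      have h3 : (u : Γ ⧸ R) * (g : Γ ⧸ R) * (u : Γ ⧸ R)⁻¹ * (g : Γ ⧸ R) = 1 := this
      have h4 : (u : Γ ⧸ R) * (g : Γ ⧸ R) * (u : Γ ⧸ R)⁻¹ = (g : Γ ⧸ R)⁻¹ := eq_inv_of_mul_eq_one_left h3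
      rw [hgi] at h4
      calc (u : Γ ⧸ R) * (g : Γ ⧸ R) = (u : Γ ⧸ R) * (g : Γ ⧸ R) * (u : Γ ⧸ R)⁻¹ * (u : Γ ⧸ R) := by group
        _ = _ := by rw [h4]
    have hcw : (w : Γ ⧸ R) * (g : Γ ⧸ R) = (g : Γ ⧸ R) * (w : Γ ⧸ R) := by
      have : (((w * g * w⁻¹) * g : Γ) : Γ ⧸ R) = 1 := (QuotientGroup.eq_one_iff _).2 (hMR h2)
      have h3 : (w : Γ ⧸ R) * (g : Γ ⧸ R) * (w : Γ ⧸ R)⁻¹ * (g : Γ ⧸ R) = 1 := this
      have h4 : (w : Γ ⧸ R) * (g : Γ ⧸ R) * (w : Γ ⧸ R)⁻¹ = (g : Γ ⧸ R)⁻¹ := eq_inv_of_mul_eq_one_left h3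
      rw [hgi] at h4
      calc (w : Γ ⧸ R) * (g : Γ ⧸ R) = (w : Γ ⧸ R) * (g : Γ ⧸ R) * (w : Γ ⧸ R)⁻¹ * (w : Γ ⧸ R) := by group
        _ = _ := by rw [h4]
    have hcp : ∀ x ∈ P, (x : Γ ⧸ R) * (g : Γ ⧸ R) = (g : Γ ⧸ R) * (x : Γ ⧸ R) := by
      intro x hx
      have : ((x * g * x⁻¹ * g⁻¹ : Γ) : Γ ⧸ R) = 1 := (QuotientGroup.eq_one_iff _).2 (hΦR (hΦc x hx g hc.hh))
      have h3 : (x : Γ ⧸ R) * (g : Γ ⧸ R) * (x : Γ ⧸ R)⁻¹ * (g : Γ ⧸ R)⁻¹ = 1 := this
      calc (x : Γ ⧸ R) * (g : Γ ⧸ R) = ((x : Γ ⧸ R) * (g : Γ ⧸ R) * (x : Γ ⧸ R)⁻¹ * (g : Γ ⧸ R)⁻¹) * ((g : Γ ⧸ R) * (x : Γ ⧸ R)) := by group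
        _ = _ := by rw [h3, one_mul]
    intro y
    obtain ⟨a, ha, hay⟩ := hdec y
    have hcomm_a : (a : Γ ⧸ R) * (g : Γ ⧸ R) = (g : Γ ⧸ R) * (a : Γ ⧸ R) := by
      rcases ha with rfl | rfl | rfl | rfl
      · simp
      · exact hcu
      · exact hcw
      · have : ((w * u : Γ) : Γ ⧸ R) = (w : Γ ⧸ R) * (u : Γ ⧸ R) := rfl
        rw [this, mul_assoc, hcu, ← mul_assoc, hcw, mul_assoc]
    have e : (y : Γ ⧸ R) = (a : Γ ⧸ R) * ((a⁻¹ * y : Γ) : Γ ⧸ R) := by
      rw [← QuotientGroup.mk_mul]; congr 1; group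
    rw [e, mul_assoc, hcp _ hay, ← mul_assoc, hcomm_a, mul_assoc]
  -- `T ≤ Φ₀`
  have hconjT : ∀ t ∈ T, ∃ y, y * g * y⁻¹ = g * t := by
    intro t ht
    have h3 : g * t ∈ P := P.mul_mem hc.hh (hc.hTP ht)
    have h4 : g * t ∉ T := by
      intro h5
      apply hc.hhT
      have : g = g * t * t⁻¹ := by group
      rw [this]
      exact T.mul_mem h5 (T.inv_mem ht)
    exact isConj_iff.1 (hc.ha _ h3 h4)
  have hTR : T ≤ R := by
    intro t ht
    obtain ⟨y, hy⟩ := hconjT t ht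
    rw [← QuotientGroup.eq_one_iff]
    have h3 : (y : Γ ⧸ R) * (g : Γ ⧸ R) * (y : Γ ⧸ R)⁻¹ = (g : Γ ⧸ R) * (t : Γ ⧸ R) :=
      congrArg (fun z : Γ => (z : Γ ⧸ R)) hy
    rw [hcen y] at h3
    have h4 : (g : Γ ⧸ R) * (t : Γ ⧸ R) = (g : Γ ⧸ R) * 1 := by
      rw [mul_one, ← h3]; group
    exact mul_left_cancel h4
  have hTΦ : T ≤ Φ₀ := le_of_le_sup_comm hQ hTR
  -- `P` is cyclic
  have hPcyc : ∀ x ∈ P, x ∈ zpowers g := by
    have hg₀ : (g : Γ) ∈ P := hc.hh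
    have htop : zpowers (⟨g, hg₀⟩ : P) ⊔ frattini P = ⊤ := by
      rw [eq_top_iff]
      rintro ⟨x, hx⟩ -
      have hmemΦ : ∀ z (hz : z ∈ T), (⟨z, hc.hTP hz⟩ : P) ∈ frattini P := by
        intro z hz
        obtain ⟨z', hz', hz''⟩ := hTΦ hz
        have : z' = ⟨z, hc.hTP hz⟩ := Subtype.ext hz''
        rw [← this]
        exact hz'
      by_cases hxT : x ∈ T
      · exact mem_sup_right (hmemΦ x hxT)
      · have h3 := hPT2 x hx hxT
        have h4 := hmemΦ _ h3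
        have e : (⟨x, hx⟩ : P) = (⟨g, hg₀⟩ : P) * ⟨g⁻¹ * x, hc.hTP h3⟩ := by
          apply Subtype.ext
          simp
        rw [e]
        exact Subgroup.mul_mem _ (mem_sup_left (mem_zpowers _)) (mem_sup_right h4)
    have h3 := frattini_nongenerating htop
    intro x hx
    have h4 : (⟨x, hx⟩ : P) ∈ zpowers (⟨g, hg₀⟩ : P) := by rw [h3]; trivial
    obtain ⟨k, hk⟩ := h4
    refine ⟨k, ?_⟩
    have := congrArg Subtype.val hk
    simpa using this
  have hPz : zpowers g = P := by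
    apply le_antisymm
    · rw [zpowers_le]; exact hc.hh
    · exact hPcyc
  have hord : orderOf g = Nat.card P := by
    rw [← Nat.card_zpowers, hPz]
  have hcP : Nat.card T * 2 = Nat.card P := by
    have := hc.card_P
    rwa [hV2] at this
  -- `T` is small
  let tt : Γ → Γ := fun a => g⁻¹ * (a * g * a⁻¹)
  have hTsub : (T : Set Γ) ⊆ ({tt 1, tt u, tt w, tt (w * u)} : Finset Γ) := by
    intro t ht
    obtain ⟨y, hy⟩ := hconjT t ht
    obtain ⟨a, ha, hay⟩ := hdec y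
    have hcomm : (a⁻¹ * y) * g = g * (a⁻¹ * y) := by
      obtain ⟨k, hk⟩ := hPcyc _ hay
      simp only at hk
      rw [← hk]
      exact ((Commute.refl g).zpow_left k).eq
    have e : t = tt a := by
      have e1 : y * g * y⁻¹ = a * g * a⁻¹ := by
        calc y * g * y⁻¹ = a * ((a⁻¹ * y) * g) * (a⁻¹ * y)⁻¹ * a⁻¹ := by group
          _ = a * (g * (a⁻¹ * y)) * (a⁻¹ * y)⁻¹ * a⁻¹ := by rw [hcomm]
          _ = _ := by group
      show t = g⁻¹ * (a * g * a⁻¹)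
      rw [← e1, hy]; group
    simp only [Finset.coe_insert, Finset.coe_singleton, Set.mem_insert_iff, Set.mem_singleton_iff]
    rcases ha with rfl | rfl | rfl | rfl
    · exact Or.inl e
    · exact Or.inr (Or.inl e)
    · exact Or.inr (Or.inr (Or.inl e))
    · exact Or.inr (Or.inr (Or.inr e))
  have hTcard : Nat.card T ≤ (({tt 1, tt u, tt w, tt (w * u)} : Finset Γ)).card := by
    have h3 := Set.ncard_le_ncard hTsub (Finset.finite_toSet _)
    rw [Set.ncard_coe_finset] at h3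
    rw [← Nat.card_coe_set_eq] at h3
    exact h3
  by_contra hg4
  have hT4 : (({tt 1, tt u, tt w, tt (w * u)} : Finset Γ)).card ≤ 4 := Finset.card_le_four
  obtain ⟨k, hk⟩ := IsPGroup.iff_card.1 hPp
  have hk3 : k = 3 := by
    have h3 : 2 ^ k ≤ 8 := by
      rw [← hk, ← hcP]
      omega
    have h4 : k ≤ 3 := by
      by_contra hh
      push Not at hh
      have : 2 ^ 4 ≤ 2 ^ k := Nat.pow_le_pow_right (by norm_num) hh
      omega
    by_contra hne
    apply hg4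
    have h5 : orderOf g ∣ 4 := by
      rw [hord, hk]
      have : k ≤ 2 := by omega
      exact (Nat.pow_dvd_pow 2 this)
    exact orderOf_dvd_iff_pow_eq_one.1 h5
  subst hk3
  have hord8 : orderOf g = 8 := by rw [hord, hk]; norm_num
  have hT4' : Nat.card T = 4 := by
    have : Nat.card T * 2 = 8 := by rw [hcP, hk]; norm_num
    omega
  have hcard4 : (({tt 1, tt u, tt w, tt (w * u)} : Finset Γ)).card = 4 := by omega
  -- distinctness
  have htt1 : tt 1 = 1 := by simp [tt]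
  have hne1 : tt u ≠ tt 1 := by
    intro he
    have : (({tt 1, tt u, tt w, tt (w * u)} : Finset Γ)).card ≤ 3 := by
      rw [he, Finset.insert_eq_self.2 (by simp)]
      exact Finset.card_le_three
    omega
  have hne2 : tt w ≠ tt 1 := by
    intro he
    have : (({tt 1, tt u, tt w, tt (w * u)} : Finset Γ)).card ≤ 3 := by
      rw [he]
      have e : ({tt 1, tt u, tt 1, tt (w * u)} : Finset Γ) = {tt 1, tt u, tt (w * u)} := by
        ext z; simp; tauto
      rw [e]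
      exact Finset.card_le_three
    omega
  have hne3 : tt u ≠ tt w := by
    intro he
    have : (({tt 1, tt u, tt w, tt (w * u)} : Finset Γ)).card ≤ 3 := by
      rw [he]
      have e : ({tt 1, tt w, tt w, tt (w * u)} : Finset Γ) = {tt 1, tt w, tt (w * u)} := by
        ext z; simp
      rw [e]
      exact Finset.card_le_three
    omega
  -- exponents
  have hpow : ∀ x ∈ P, ∃ n : ℕ, g ^ n = x := by
    intro x hx
    have := (mem_powers_iff_mem_zpowers).2 (hPcyc x hx)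
    exact this
  have heven : ∀ x ∈ T, ∃ n : ℕ, g ^ (2 * n) = x := by
    intro x hx
    obtain ⟨n, hn⟩ := hpow x (hc.hTP hx)
    rcases Nat.even_or_odd' n with ⟨m, rfl | rfl⟩
    · exact ⟨m, hn⟩
    · exfalso
      apply hc.hhT
      have h3 : g ^ 2 ∈ T := hc.pow_P hc.hh
      have h4 : g = x * ((g ^ 2) ^ m)⁻¹ := by
        rw [← hn, pow_succ, ← pow_mul]; group
      rw [h4]
      exact T.mul_mem hx (T.inv_mem (T.pow_mem h3 m))
  obtain ⟨α, hα⟩ := hpow (u * g * u⁻¹) (hPn.conj_mem _ hc.hh u)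
  obtain ⟨β, hβ⟩ := hpow (w * g * w⁻¹) (hPn.conj_mem _ hc.hh w)
  obtain ⟨a, ha⟩ := heven (u * u) hu
  obtain ⟨b, hb⟩ := heven (w * w) hw
  have hcast : ∀ m n : ℕ, g ^ m = g ^ n → ((m : ZMod 8) = (n : ZMod 8)) := by
    intro m n hmn
    have h3 := pow_eq_pow_iff_modEq.1 hmn
    rw [hord8] at h3
    exact (ZMod.natCast_eq_natCast_iff _ _ _).2 h3
  have hcast' : ∀ m n : ℕ, ((m : ZMod 8) = (n : ZMod 8)) → g ^ m = g ^ n := by
    intro m n hmn
    apply pow_eq_pow_iff_modEq.2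
    rw [hord8]
    exact (ZMod.natCast_eq_natCast_iff _ _ _).1 hmn
  have hconjpow : ∀ (x : Γ) (e : ℕ), x * g * x⁻¹ = g ^ e → ∀ n : ℕ, x * g ^ n = g ^ (n * e) * x := by
    intro x e he n
    have h3 : x * g ^ n * x⁻¹ = (x * g * x⁻¹) ^ n := (conj_pow).symm
    rw [he, ← pow_mul, mul_comm e n] at h3
    rw [← h3]; group
  have E1 : (α : ZMod 8) + 1 + 2 * a * β = 2 * a := by
    have e0 : (u * g * u⁻¹) * g * (w * (u * u)) = (u * u) * w := by
      rw [hg]; group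
    rw [← hα, ← ha, hconjpow w β hβ.symm (2 * a)] at e0
    have e1 : g ^ α * g * (g ^ (2 * a * β) * w) = g ^ (2 * a) * w := e0
    have e2 : g ^ (α + 1 + 2 * a * β) = g ^ (2 * a) := by
      have e3 : g ^ α * g * (g ^ (2 * a * β) * w) = g ^ (α + 1 + 2 * a * β) * w := by
        rw [pow_add, pow_succ]; group
      rw [e3] at e1
      exact mul_right_cancel e1
    have := hcast _ _ e2
    push_cast at this
    exact this
  have E2 : 2 * (a : ZMod 8) * α = 2 * a := by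
    have e0 : u * (u * u) = (u * u) * u := by group
    rw [← ha, hconjpow u α hα.symm (2 * a)] at e0
    have e2 := mul_right_cancel e0
    have := hcast _ _ e2
    push_cast at this
    exact this
  have E3 : 1 + (β : ZMod 8) + 2 * b = 2 * b * α := by
    have e0 : g * (w * g * w⁻¹) * ((w * w) * u) = u * (w * w) := by
      rw [hg]; group
    rw [← hβ, ← hb, hconjpow u α hα.symm (2 * b)] at e0
    have e2 : g ^ (1 + β + 2 * b) = g ^ (2 * b * α) := by
      have e3 : g * g ^ β * (g ^ (2 * b) * u) = g ^ (1 + β + 2 * b) * u := by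
        rw [pow_add, pow_add, pow_one]; group
      rw [e3] at e0
      exact mul_right_cancel e0
    have := hcast _ _ e2
    push_cast at this
    exact this
  have E4 : 2 * (b : ZMod 8) * β = 2 * b := by
    have e0 : w * (w * w) = (w * w) * w := by group
    rw [← hb, hconjpow w β hβ.symm (2 * b)] at e0
    have e2 := mul_right_cancel e0
    have := hcast _ _ e2
    push_cast at this
    exact this
  refine zmod8_check α β a b ?_ ?_ ?_ E1 E2 E3 E4
  · intro h3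
    apply hne1
    show g⁻¹ * (u * g * u⁻¹) = g⁻¹ * (1 * g * 1⁻¹)
    rw [← hα, hcast' α 1 (by simpa using h3)]
    simp
  · intro h3
    apply hne2
    show g⁻¹ * (w * g * w⁻¹) = g⁻¹ * (1 * g * 1⁻¹)
    rw [← hβ, hcast' β 1 (by simpa using h3)]
    simp
  · intro h3
    apply hne3
    show g⁻¹ * (u * g * u⁻¹) = g⁻¹ * (w * g * w⁻¹)
    rw [← hα, ← hβ, hcast' α β h3]

/-- The case `|P : T| = 2`, with `p = 2`. -/
theorem Core.two_aux {h : Γ} (hc : Core 2 P T h) (hV2 : Nat.card (P.map (QuotientGroup.mk' T)) = 2) :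
    h ^ 2 = 1 ∨ h ^ 4 = 1 := by
  classical
  set V := P.map (QuotientGroup.mk' T) with hVdef
  set v : Γ ⧸ T := (h : Γ ⧸ T) with hv
  have hvV : v ∈ V := ⟨h, hc.hh, rfl⟩
  have hv1 : v ≠ 1 := fun h1 => hc.hhT ((QuotientGroup.eq_one_iff h).1 h1)
  have hmemV : ∀ x : Γ, (x : Γ ⧸ T) ∈ V ↔ x ∈ P := hc.mem_map_mk
  have hV12 : ∀ z ∈ V, z = 1 ∨ z = v := by
    obtain ⟨y, hy1, hyu⟩ := (Nat.card_eq_two_iff' (1 : V)).1 hV2
    intro z hz
    by_cases hz1 : z = 1
    · exact Or.inl hz1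
    · right
      have e1 : (⟨z, hz⟩ : V) = y := hyu _ (fun h1 => hz1 (congrArg Subtype.val h1))
      have e2 : (⟨v, hvV⟩ : V) = y := hyu _ (fun h1 => hv1 (congrArg Subtype.val h1))
      have e3 := e1.trans e2.symm
      exact congrArg Subtype.val e3
  have hvv : v * v = 1 := by
    have h3 : ((h ^ 2 : Γ) : Γ ⧸ T) = 1 := (QuotientGroup.eq_one_iff _).2 (hc.pow_P hc.hh)
    rwa [pow_two] at h3
  have hvinv : v⁻¹ = v := inv_eq_of_mul_eq_one_left hvv
  haveI hVn : V.Normal := Subgroup.Normal.map hPn _ (QuotientGroup.mk'_surjective T)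
  have hvc : ∀ x, x * v = v * x := by
    intro x
    have h3 := hVn.conj_mem v hvV x
    rcases hV12 _ h3 with h4 | h4
    · exfalso
      apply hv1
      have : x⁻¹ * (x * v * x⁻¹) * x = v := by group
      rw [h4] at this
      rw [← this]; group
    · calc x * v = (x * v * x⁻¹) * x := by group
        _ = v * x := by rw [h4]
  have hd := hc.seitz
  have hcomm : ∀ x y : Γ ⧸ T, x * y * x⁻¹ * y⁻¹ = 1 ∨ x * y * x⁻¹ * y⁻¹ = v :=
    fun x y => hV12 _ (hd.comm x y)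
  have hZ : ∀ a : Γ ⧸ T, a ≠ 1 → a ≠ v → ∃ y, y * a * y⁻¹ = a * v := by
    intro a ha1 hav
    have haV : a ∉ V := by
      intro h3
      rcases hV12 a h3 with h4 | h4
      · exact ha1 h4
      · exact hav h4
    exact hd.camina a haV v hvV
  have hsq : ∀ a : Γ ⧸ T, a * a = 1 ∨ a * a = v := by
    intro a
    by_cases ha : a = 1
    · left; rw [ha, one_mul]
    by_cases ha' : a = v
    · left; rw [ha', hvv]
    have hcent : ∀ y, y * (a * a) * y⁻¹ = a * a := by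
      intro y
      have hc1 := hcomm y a
      have e : y * a * y⁻¹ = (y * a * y⁻¹ * a⁻¹) * a := by group
      have e2 : y * (a * a) * y⁻¹ = (y * a * y⁻¹) * (y * a * y⁻¹) := by group
      rw [e2, e]
      rcases hc1 with h4 | h4
      · rw [h4, one_mul]
      · rw [h4]
        calc v * a * (v * a) = v * (a * v) * a := by group
          _ = v * (v * a) * a := by rw [hvc]
          _ = (v * v) * (a * a) := by group
          _ = a * a := by rw [hvv, one_mul]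
    by_contra hcon
    push Not at hcon
    obtain ⟨y, hy⟩ := hZ (a * a) hcon.1 hcon.2
    rw [hcent y] at hy
    exact hv1 (mul_left_cancel (a := a * a) (by rw [mul_one]; exact hy.symm))
  -- squares and the `2`-group property
  have hsqP : ∀ x : Γ, x * x ∈ P := by
    intro x
    rw [← hmemV]
    have e : ((x * x : Γ) : Γ ⧸ T) = (x : Γ ⧸ T) * (x : Γ ⧸ T) := rfl
    rw [e]
    rcases hsq x with h3 | h3
    · rw [h3]; exact V.one_mem
    · rw [h3]; exact hvV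
  have hQ : IsPGroup 2 Γ := by
    intro x
    obtain ⟨k, hk⟩ := hc.hPp ⟨x * x, hsqP x⟩
    have hk' : (x * x) ^ 2 ^ k = 1 := congrArg Subtype.val hk
    refine ⟨k + 1, ?_⟩
    rw [pow_succ', pow_mul, pow_two]
    exact hk'
  have hPT2 : ∀ x ∈ P, x ∉ T → h⁻¹ * x ∈ T := by
    intro x hx hxT
    rcases hV12 _ ((hmemV x).2 hx) with h3 | h3
    · exact absurd ((QuotientGroup.eq_one_iff x).1 h3) hxT
    · exact QuotientGroup.eq.1 h3.symm
  -- the subgroup `B`
  set M : Subgroup Γ := ⁅T, (⊤ : Subgroup Γ)⁆ with hM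
  haveI hMn : M.Normal := Subgroup.commutator_normal _ _
  have htcent : ∀ t ∈ T, ∀ y : Γ, (t : Γ ⧸ M) * (y : Γ ⧸ M) = (y : Γ ⧸ M) * (t : Γ ⧸ M) := by
    intro t ht y
    have h3 : ⁅t, y⁆ ∈ M := Subgroup.commutator_mem_commutator ht (mem_top y)
    have h4 : ((⁅t, y⁆ : Γ) : Γ ⧸ M) = 1 := (QuotientGroup.eq_one_iff _).2 h3
    rw [commutatorElement_def] at h4
    have h5 : (t : Γ ⧸ M) * (y : Γ ⧸ M) * (t : Γ ⧸ M)⁻¹ * (y : Γ ⧸ M)⁻¹ = 1 := h4
    calc (t : Γ ⧸ M) * (y : Γ ⧸ M) =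
        ((t : Γ ⧸ M) * (y : Γ ⧸ M) * (t : Γ ⧸ M)⁻¹ * (y : Γ ⧸ M)⁻¹) * ((y : Γ ⧸ M) * (t : Γ ⧸ M)) := by group
      _ = _ := by rw [h5, one_mul]
  let B : Subgroup Γ := (centralizer ({(h : Γ ⧸ M)} : Set (Γ ⧸ M))).comap (QuotientGroup.mk' M)
  have hmemB : ∀ x : Γ, x ∈ B ↔ (x : Γ ⧸ M) * (h : Γ ⧸ M) = (h : Γ ⧸ M) * (x : Γ ⧸ M) := fun x =>
    mem_centralizer_singleton_iff
  have hTB : T ≤ B := fun t ht => (hmemB t).2 (htcent t ht h)
  have hhB : h ∈ B := (hmemB h).2 rfl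
  have hsqB : ∀ x : Γ, x * x ∉ T → x ∈ B := by
    intro x hx
    have h3 := hPT2 _ (hsqP x) hx
    set t := h⁻¹ * (x * x) with ht
    have e : x * x = h * t := by rw [ht]; group
    rw [hmemB]
    have h4 : (x : Γ ⧸ M) * (((x * x : Γ)) : Γ ⧸ M) = ((x * x : Γ) : Γ ⧸ M) * (x : Γ ⧸ M) := by
      rw [← QuotientGroup.mk_mul, ← QuotientGroup.mk_mul]
      congr 1
      group
    rw [e] at h4
    have h5 : ((h * t : Γ) : Γ ⧸ M) = (h : Γ ⧸ M) * (t : Γ ⧸ M) := rfl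
    rw [h5, ← mul_assoc, mul_assoc (h : Γ ⧸ M), htcent t h3 x, ← mul_assoc] at h4
    exact mul_right_cancel h4
  by_cases hBtop : ∀ x, x ∈ B
  · -- `T ≤ M`, so `T = 1`
    have hTM : T ≤ M := by
      intro t ht
      have h3 : h * t ∈ P := P.mul_mem hc.hh (hc.hTP ht)
      have h4 : h * t ∉ T := by
        intro h5
        apply hc.hhT
        have : h = h * t * t⁻¹ := by group
        rw [this]
        exact T.mul_mem h5 (T.inv_mem ht)
      obtain ⟨y, hy⟩ := isConj_iff.1 (hc.ha _ h3 h4)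
      have h5 : (y : Γ ⧸ M) * (h : Γ ⧸ M) * (y : Γ ⧸ M)⁻¹ = (h : Γ ⧸ M) * (t : Γ ⧸ M) :=
        congrArg (fun z : Γ => (z : Γ ⧸ M)) hy
      rw [(hmemB y).1 (hBtop y)] at h5
      rw [← QuotientGroup.eq_one_iff]
      have h6 : (h : Γ ⧸ M) * (t : Γ ⧸ M) = (h : Γ ⧸ M) * 1 := by
        rw [mul_one, ← h5]; group
      exact mul_left_cancel h6
    have hT0 : T = ⊥ := by
      haveI : Group.IsNilpotent Γ := hQ.isNilpotent
      by_contra hne
      exact Cfsg.Agent.Lib.FGStruct.Camina.not_le_commutator_top _ hne hTM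
    left
    have h3 := hc.pow_P hc.hh
    rw [hT0, mem_bot] at h3
    exact h3
  · right
    push Not at hBtop
    obtain ⟨x₀, hx₀⟩ := hBtop
    let B' : Subgroup (Γ ⧸ T) := B.map (QuotientGroup.mk' T)
    have hmemB' : ∀ x : Γ, (x : Γ ⧸ T) ∈ B' ↔ x ∈ B := by
      intro x
      constructor
      · rintro ⟨y, hy, hyx⟩
        have h1 : (y : Γ ⧸ T) = x := hyx
        have h2 := QuotientGroup.eq.1 h1
        have h3 : x = y * (y⁻¹ * x) := by group
        rw [h3]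
        exact B.mul_mem hy (hTB h2)
      · intro hx
        exact ⟨x, hx, rfl⟩
    obtain ⟨u', w', hu1, hw1, huw, hdec⟩ := exists_dihedral v hv1 hvv hvc hcomm hZ hsq B' (by
      intro a ha
      obtain ⟨x, rfl⟩ := QuotientGroup.mk_surjective a
      rw [hmemB']
      apply hsqB
      intro h3
      apply hv1
      rw [← ha]
      exact (QuotientGroup.eq_one_iff _).2 h3) ((hmemB' h).2 hhB) (x₀ := (x₀ : Γ ⧸ T)) (by
      rw [hmemB']
      exact hx₀)
    obtain ⟨u, rfl⟩ := QuotientGroup.mk_surjective u'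
    obtain ⟨w, rfl⟩ := QuotientGroup.mk_surjective w'
    set g := u * w * u⁻¹ * w⁻¹ with hg
    have hgv : (g : Γ ⧸ T) = v := huw
    have hgP : g ∈ P := by rw [← hmemV, hgv]; exact hvV
    have hgT : g ∉ T := by
      intro h3
      apply hv1
      rw [← hgv]
      exact (QuotientGroup.eq_one_iff _).2 h3
    have hcg : Core 2 P T g := by
      refine ⟨hc.comm_eq, hc.hTP, hc.hPp, hgP, hgT, ?_, hc.hb⟩
      intro x hx hxT
      exact (hc.ha g hgP hgT).symm.trans (hc.ha x hx hxT)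
    have hg4 := Core.dihedral_case hQ hcg hg
      ((QuotientGroup.eq_one_iff _).1 hu1) ((QuotientGroup.eq_one_iff _).1 hw1) (by
        intro x hx hxT
        rcases hV12 _ ((hmemV x).2 hx) with h3 | h3
        · exact absurd ((QuotientGroup.eq_one_iff x).1 h3) hxT
        · exact QuotientGroup.eq.1 (hgv.trans h3.symm)) hV2 (by
        intro y
        obtain ⟨a', ha', hy⟩ := hdec (y : Γ ⧸ T)
        have hyy : ∃ a, (a = 1 ∨ a = u ∨ a = w ∨ a = w * u) ∧ (a : Γ ⧸ T) = a' := by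
          rcases ha' with rfl | rfl | rfl | rfl
          · exact ⟨1, Or.inl rfl, rfl⟩
          · exact ⟨u, Or.inr (Or.inl rfl), rfl⟩
          · exact ⟨w, Or.inr (Or.inr (Or.inl rfl)), rfl⟩
          · exact ⟨w * u, Or.inr (Or.inr (Or.inr rfl)), rfl⟩
        obtain ⟨a, ha, rfl⟩ := hyy
        refine ⟨a, ha, ?_⟩
        rcases hy with hy | hy
        · exact hc.hTP (QuotientGroup.eq.1 hy.symm)
        · have e : (y : Γ ⧸ T) = ((a * h : Γ) : Γ ⧸ T) := hy
          have h3 := hc.hTP (QuotientGroup.eq.1 e.symm)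
          have e2 : a⁻¹ * y = h * ((a * h)⁻¹ * y) := by group
          rw [e2]
          exact P.mul_mem hc.hh h3)
    obtain ⟨y, rfl⟩ := isConj_iff.1 (hc.ha g hgP hgT).symm
    rw [conj_pow, hg4]; group

end Dihedral

section Final

variable {Γ : Type*} [Group Γ] [Finite Γ] {p : ℕ} [hp : Fact p.Prime] {P T : Subgroup Γ} {h : Γ}
  [hPn : P.Normal] [hTn : T.Normal]

/-- **The core theorem.** -/
theorem Core.main (hc : Core p P T h) : h ^ p = 1 ∨ (p = 2 ∧ h ^ 4 = 1) := by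
  by_cases h2 : 2 < Nat.card (P.map (QuotientGroup.mk' T))
  · exact hc.large h2
  · have hle : Nat.card (P.map (QuotientGroup.mk' T)) ≤ 2 := by omega
    obtain ⟨n, hn⟩ := IsPGroup.iff_card.1 (hc.hPp.map (QuotientGroup.mk' T))
    have hv : (⟨(h : Γ ⧸ T), ⟨h, hc.hh, rfl⟩⟩ : P.map (QuotientGroup.mk' T)) ≠ 1 := by
      intro h1
      exact hc.hhT ((QuotientGroup.eq_one_iff h).1 (congrArg Subtype.val h1))
    have hnt : Nontrivial (P.map (QuotientGroup.mk' T)) := ⟨⟨_, _, hv⟩⟩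
    have h1lt : 1 < Nat.card (P.map (QuotientGroup.mk' T)) := Finite.one_lt_card
    have hV2 : Nat.card (P.map (QuotientGroup.mk' T)) = 2 := by omega
    have hn0 : n ≠ 0 := by
      rintro rfl
      rw [hn, pow_zero] at h1lt
      omega
    have hp2 : p = 2 := by
      have h3 : p ∣ 2 := by
        rw [← hV2, hn]
        exact dvd_pow_self p hn0
      exact (Nat.prime_dvd_prime_iff_eq hp.out Nat.prime_two).1 h3
    subst hp2
    rcases Core.two_aux hc hV2 with h3 | h3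
    · exact Or.inl h3
    · exact Or.inr ⟨rfl, h3⟩

end Final

end Cfsg.Agent.Lib.NC.Core
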